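import Mathlib

/-!
# Definitions for S2249 (normal 2-rank of `GL_n(q)`, `q` odd)

* `dg m F : (m → Fˣ) →* GL m F` : diagonal matrices.
* `fE π k` : the diagonal idempotent of the fibre `π ⁻¹' {k}` of `π : m → ν`.
* `sgn F π : (ν → ℤˣ) →* GL m F` : diagonal sign matrices constant on the fibres of `π`;
  `A0 F π` is its range.
* `T1 m ι` : diagonal matrices with entries powers of `ι`.
* `bm`, `bg` : block diagonal matrices with `2 × 2` blocks indexed by `κ` and identity on `ρ`,
  index type `(Fin 2 × κ) ⊕ ρ`; `T3 κ ρ Mu` : blocks powers of `Mu`; `π3` the block projection.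
-/

set_option autoImplicit false

namespace Cfsg.Agent.Helper21.N2R

/-- diagonal matrices as a group hom -/
noncomputable def dg (m : Type*) [Fintype m] [DecidableEq m] (F : Type*) [Field F] :
    (m → Fˣ) →* Matrix.GeneralLinearGroup m F :=
  (Units.map (Matrix.diagonalRingHom m F).toMonoidHom).comp
    (MulEquiv.piUnits (M := fun _ : m => F)).symm.toMonoidHom

/-- the diagonal idempotent of the fibre of `π` over `k` -/
def fE {m ν : Type*} [DecidableEq m] [DecidableEq ν] {F : Type*} [Field F]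
    (π : m → ν) (k : ν) : Matrix m m F :=
  Matrix.diagonal (fun i => if π i = k then (1 : F) else 0)

/-- diagonal sign matrices, constant on the fibres of `π` -/
noncomputable def sgn {m ν : Type*} [Fintype m] [DecidableEq m] (F : Type*) [Field F]
    (π : m → ν) : (ν → ℤˣ) →* Matrix.GeneralLinearGroup m F :=
  (dg m F).comp (MonoidHom.pi fun i : m =>
    (Units.map (Int.castRingHom F).toMonoidHom).comp (Pi.evalMonoidHom (fun _ : ν => ℤˣ) (π i)))

/-- the group of diagonal sign matrices constant on the fibres of `π` -/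
noncomputable def A0 {m ν : Type*} [Fintype m] [DecidableEq m] (F : Type*) [Field F]
    (π : m → ν) : Subgroup (Matrix.GeneralLinearGroup m F) :=
  (sgn F π).range

/-- diagonal matrices whose entries are powers of `ι` -/
noncomputable def T1 (m : Type*) [Fintype m] [DecidableEq m] {F : Type*} [Field F] (ι : Fˣ) :
    Subgroup (Matrix.GeneralLinearGroup m F) :=
  Subgroup.map (dg m F) (Subgroup.pi Set.univ (fun _ : m => Subgroup.zpowers ι))

/-- block diagonal matrices: `2 × 2` blocks indexed by `κ`, identity on `ρ` -/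
def bm (κ ρ : Type*) [Fintype κ] [DecidableEq κ] [Fintype ρ] [DecidableEq ρ]
    (F : Type*) [Field F] :
    (κ → Matrix (Fin 2) (Fin 2) F) →* Matrix ((Fin 2 × κ) ⊕ ρ) ((Fin 2 × κ) ⊕ ρ) F where
  toFun N := Matrix.fromBlocks (Matrix.blockDiagonal N) 0 0 1
  map_one' := by
    simp [Matrix.fromBlocks_one]
  map_mul' N N' := by
    rw [Matrix.fromBlocks_multiply]
    simp only [Matrix.mul_zero, Matrix.zero_mul, add_zero, zero_add, mul_one]
    congr 1
    exact (Matrix.blockDiagonal_mul N N')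

/-- block diagonal invertible matrices -/
noncomputable def bg (κ ρ : Type*) [Fintype κ] [DecidableEq κ] [Fintype ρ] [DecidableEq ρ]
    (F : Type*) [Field F] :
    (κ → Matrix.GeneralLinearGroup (Fin 2) F) →* Matrix.GeneralLinearGroup ((Fin 2 × κ) ⊕ ρ) F :=
  (Units.map (bm κ ρ F)).comp
    (MulEquiv.piUnits (M := fun _ : κ => Matrix (Fin 2) (Fin 2) F)).symm.toMonoidHom

/-- the corner embedding of a `2 × 2` matrix at block `i` -/
def emb {κ : Type*} (ρ : Type*) [DecidableEq κ] {F : Type*} [Field F]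
    (i : κ) (X : Matrix (Fin 2) (Fin 2) F) : Matrix ((Fin 2 × κ) ⊕ ρ) ((Fin 2 × κ) ⊕ ρ) F :=
  Matrix.fromBlocks (Matrix.blockDiagonal (Pi.single i X)) 0 0 0

/-- block diagonal matrices whose blocks are powers of `Mu` -/
noncomputable def T3 (κ ρ : Type*) [Fintype κ] [DecidableEq κ] [Fintype ρ] [DecidableEq ρ]
    {F : Type*} [Field F] (Mu : Matrix.GeneralLinearGroup (Fin 2) F) :
    Subgroup (Matrix.GeneralLinearGroup ((Fin 2 × κ) ⊕ ρ) F) :=
  Subgroup.map (bg κ ρ F) (Subgroup.pi Set.univ (fun _ : κ => Subgroup.zpowers Mu))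

/-- the block projection -/
def π3 (κ ρ : Type*) : (Fin 2 × κ) ⊕ ρ → κ ⊕ ρ := Sum.map Prod.snd id

theorem dg_val (m : Type*) [Fintype m] [DecidableEq m] (F : Type*) [Field F] (d : m → Fˣ) :
    ((dg m F d : Matrix.GeneralLinearGroup m F) : Matrix m m F)
      = Matrix.diagonal (fun i => (d i : F)) := rfl

theorem sgn_val {m ν : Type*} [Fintype m] [DecidableEq m] (F : Type*) [Field F]
    (π : m → ν) (ε : ν → ℤˣ) :
    ((sgn F π ε : Matrix.GeneralLinearGroup m F) : Matrix m m F)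
      = Matrix.diagonal (fun i => (((ε (π i) : ℤˣ) : ℤ) : F)) := rfl

theorem bg_val (κ ρ : Type*) [Fintype κ] [DecidableEq κ] [Fintype ρ] [DecidableEq ρ]
    (F : Type*) [Field F] (d : κ → Matrix.GeneralLinearGroup (Fin 2) F) :
    ((bg κ ρ F d : Matrix.GeneralLinearGroup ((Fin 2 × κ) ⊕ ρ) F) :
        Matrix ((Fin 2 × κ) ⊕ ρ) ((Fin 2 × κ) ⊕ ρ) F)
      = Matrix.fromBlocks (Matrix.blockDiagonal (fun i => (d i : Matrix (Fin 2) (Fin 2) F))) 0 0 1 :=
  rfl

theorem mem_T1_iff (m : Type*) [Fintype m] [DecidableEq m] {F : Type*} [Field F] (ι : Fˣ)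
    (t : Matrix.GeneralLinearGroup m F) :
    t ∈ T1 m ι ↔ ∃ d : m → Fˣ, (∀ i, d i ∈ Subgroup.zpowers ι) ∧ dg m F d = t := by
  simp [T1, Subgroup.mem_map, Subgroup.mem_pi]

theorem mem_T3_iff (κ ρ : Type*) [Fintype κ] [DecidableEq κ] [Fintype ρ] [DecidableEq ρ]
    {F : Type*} [Field F] (Mu : Matrix.GeneralLinearGroup (Fin 2) F)
    (t : Matrix.GeneralLinearGroup ((Fin 2 × κ) ⊕ ρ) F) :
    t ∈ T3 κ ρ Mu ↔ ∃ d : κ → Matrix.GeneralLinearGroup (Fin 2) F,
      (∀ i, d i ∈ Subgroup.zpowers Mu) ∧ bg κ ρ F d = t := by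
  simp [T3, Subgroup.mem_map, Subgroup.mem_pi]

theorem mem_A0_iff {m ν : Type*} [Fintype m] [DecidableEq m] (F : Type*) [Field F]
    (π : m → ν) (a : Matrix.GeneralLinearGroup m F) :
    a ∈ A0 F π ↔ ∃ ε : ν → ℤˣ, sgn F π ε = a := Iff.rfl

end Cfsg.Agent.Helper21.N2R
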