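import Mathlib
import Cfsg.Agent.Helper21.DihOrdA

/-!
# The centralizer of a double transposition in `A₆` is dihedral of order eight (helper21)
-/

set_option autoImplicit false

namespace Cfsg.Agent.Helper21.DEight

open Equiv

/-- Centralizers correspond under a group isomorphism. -/
theorem deCentCongr {H H' : Type*} [Group H] [Group H'] (φ : H ≃* H') (a : H) :
    Nonempty (↥(Subgroup.centralizer ({a} : Set H)) ≃*
      ↥(Subgroup.centralizer ({φ a} : Set H'))) := by
  refine ⟨{ toFun := fun x => ⟨φ x.1, ?_⟩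
            invFun := fun y => ⟨φ.symm y.1, ?_⟩
            left_inv := ?_
            right_inv := ?_
            map_mul' := ?_ }⟩
  · rw [Subgroup.mem_centralizer_iff]
    intro h hh
    rw [Set.mem_singleton_iff] at hh
    subst hh
    rw [← map_mul, ← map_mul]
    congr 1
    exact (Subgroup.mem_centralizer_iff.mp x.2) a rfl
  · rw [Subgroup.mem_centralizer_iff]
    intro h hh
    rw [Set.mem_singleton_iff] at hh
    subst hh
    apply φ.injective
    rw [map_mul, map_mul, MulEquiv.apply_symm_apply]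
    exact (Subgroup.mem_centralizer_iff.mp y.2) (φ h) rfl
  · intro x
    apply Subtype.ext
    simp
  · intro y
    apply Subtype.ext
    simp
  · intro x y
    apply Subtype.ext
    simp

/-- The standard double transposition `(0 1)(2 3)`. -/
def deA0 : Perm (Fin 6) := swap 0 1 * swap 2 3

/-- The element `(0 2 1 3)(4 5)` of order four. -/
def deS0 : Perm (Fin 6) := swap 0 2 * swap 2 1 * swap 1 3 * swap 4 5

/-- The involution `(0 2)(1 3)`. -/
def deT0 : Perm (Fin 6) := swap 0 2 * swap 1 3

theorem deA0_mem : deA0 ∈ alternatingGroup (Fin 6) := by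
  rw [Equiv.Perm.mem_alternatingGroup]; decide

theorem deS0_mem : deS0 ∈ alternatingGroup (Fin 6) := by
  rw [Equiv.Perm.mem_alternatingGroup]; decide

theorem deT0_mem : deT0 ∈ alternatingGroup (Fin 6) := by
  rw [Equiv.Perm.mem_alternatingGroup]; decide

set_option maxRecDepth 100000 in
theorem deA0_cent : ∀ x : Perm (Fin 6), x * deA0 = deA0 * x → Perm.sign x = 1 →
    x = 1 ∨ x = deS0 ∨ x = deS0 ^ 2 ∨ x = deS0 ^ 3 ∨ x = deT0 ∨ x = deT0 * deS0 ∨
      x = deT0 * deS0 ^ 2 ∨ x = deT0 * deS0 ^ 3 := by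
  decide

theorem deS0_facts : deS0 ^ 2 ≠ 1 ∧ deS0 ^ 4 = 1 ∧ deT0 * deT0 = 1 ∧
    deT0 * deS0 * deT0⁻¹ = deS0⁻¹ ∧ deS0 * deA0 = deA0 * deS0 ∧ deT0 * deA0 = deA0 * deT0 ∧
    deT0 ≠ 1 ∧ deT0 ≠ deS0 ∧ deT0 ≠ deS0 ^ 2 ∧ deT0 ≠ deS0 ^ 3 := by
  decide

/-- The three standard elements as elements of `A₆`. -/
def deA0' : ↥(alternatingGroup (Fin 6)) := ⟨deA0, deA0_mem⟩

/-- `(0 2 1 3)(4 5)` in `A₆`. -/
def deS0' : ↥(alternatingGroup (Fin 6)) := ⟨deS0, deS0_mem⟩

/-- `(0 2)(1 3)` in `A₆`. -/
def deT0' : ↥(alternatingGroup (Fin 6)) := ⟨deT0, deT0_mem⟩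

theorem deS0'_orderOf : orderOf deS0' = 4 := by
  have h2 : ¬ deS0' ^ 2 ^ 1 = 1 := by
    intro h
    apply deS0_facts.1
    have := congrArg Subtype.val h
    simpa [deS0'] using this
  have h4 : deS0' ^ 2 ^ (1 + 1) = 1 := by
    apply Subtype.ext
    have := deS0_facts.2.1
    simpa [deS0'] using this
  have := orderOf_eq_prime_pow (x := deS0') (p := 2) (n := 1) h2 h4
  simpa using this

theorem deT0'_not_mem : deT0' ∉ Subgroup.zpowers deS0' := by
  intro hmem
  obtain ⟨k, hk⟩ := Subgroup.mem_zpowers_iff.mp hmem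
  rw [← zpow_mod_orderOf, deS0'_orderOf] at hk
  have h0 : 0 ≤ k % ((4 : ℕ) : ℤ) := Int.emod_nonneg k (by norm_num)
  have h4 : k % ((4 : ℕ) : ℤ) < 4 := Int.emod_lt_of_pos k (by norm_num)
  obtain ⟨j, hj⟩ := Int.eq_ofNat_of_zero_le h0
  rw [hj] at hk h4
  rw [zpow_natCast] at hk
  have hj4 : j < 4 := by exact_mod_cast h4
  have hk' : deS0 ^ j = deT0 := by
    have := congrArg Subtype.val hk
    simpa [deS0', deT0'] using this
  obtain ⟨-, -, -, -, -, -, h1, h2, h3, h4'⟩ := deS0_facts
  interval_cases j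
  · exact h1 (by simpa using hk'.symm)
  · exact h2 (by simpa using hk'.symm)
  · exact h3 hk'.symm
  · exact h4' hk'.symm

theorem deA0'_closure : Subgroup.closure ({deS0', deT0'} : Set ↥(alternatingGroup (Fin 6))) =
    Subgroup.centralizer ({deA0'} : Set ↥(alternatingGroup (Fin 6))) := by
  obtain ⟨-, -, -, -, hs, ht, -⟩ := deS0_facts
  have hsmem : deS0' ∈ Subgroup.closure ({deS0', deT0'} : Set ↥(alternatingGroup (Fin 6))) :=
    Subgroup.subset_closure (by simp)
  have htmem : deT0' ∈ Subgroup.closure ({deS0', deT0'} : Set ↥(alternatingGroup (Fin 6))) :=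
    Subgroup.subset_closure (by simp)
  apply le_antisymm
  · rw [Subgroup.closure_le]
    intro x hx
    rw [SetLike.mem_coe, Subgroup.mem_centralizer_iff]
    intro h hh
    rw [Set.mem_singleton_iff] at hh
    subst hh
    apply Subtype.ext
    rcases hx with rfl | hx
    · exact hs.symm
    · rw [Set.mem_singleton_iff] at hx
      subst hx
      exact ht.symm
  · intro x hx
    rw [Subgroup.mem_centralizer_iff] at hx
    have h1 := congrArg Subtype.val (hx deA0' rfl)
    have h2 : (x : Perm (Fin 6)) * deA0 = deA0 * (x : Perm (Fin 6)) := h1.symm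
    have h3 : Perm.sign (x : Perm (Fin 6)) = 1 := Equiv.Perm.mem_alternatingGroup.mp x.2
    have key : ∀ y : ↥(alternatingGroup (Fin 6)),
        y ∈ Subgroup.closure ({deS0', deT0'} : Set ↥(alternatingGroup (Fin 6))) →
        (x : Perm (Fin 6)) = (y : Perm (Fin 6)) →
        x ∈ Subgroup.closure ({deS0', deT0'} : Set ↥(alternatingGroup (Fin 6))) := by
      intro y hy hxy
      have : x = y := Subtype.ext hxy
      rw [this]
      exact hy
    rcases deA0_cent _ h2 h3 with h | h | h | h | h | h | h | h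
    · exact key 1 (Subgroup.one_mem _) h
    · exact key deS0' hsmem h
    · exact key (deS0' ^ 2) (Subgroup.pow_mem _ hsmem 2) h
    · exact key (deS0' ^ 3) (Subgroup.pow_mem _ hsmem 3) h
    · exact key deT0' htmem h
    · exact key (deT0' * deS0') (Subgroup.mul_mem _ htmem hsmem) h
    · exact key (deT0' * deS0' ^ 2) (Subgroup.mul_mem _ htmem (Subgroup.pow_mem _ hsmem 2)) h
    · exact key (deT0' * deS0' ^ 3) (Subgroup.mul_mem _ htmem (Subgroup.pow_mem _ hsmem 3)) h

/-- The centralizer of the standard double transposition in `A₆` is dihedral of order eight. -/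
theorem deA0'_iso : Nonempty (↥(Subgroup.centralizer ({deA0'} : Set ↥(alternatingGroup (Fin 6))))
    ≃* DihedralGroup 4) := by
  obtain ⟨-, -, htt, hrel, -⟩ := deS0_facts
  obtain ⟨e, -, -⟩ := Cfsg.Agent.Helper21.DihOrd.dsIso (σ := deS0') (τ := deT0') (m := 4)
    deS0'_orderOf (Subtype.ext htt) (Subtype.ext hrel) deT0'_not_mem _ deA0'_closure
  exact ⟨e⟩

/-- An involution of `S₆` moving exactly four points is conjugate to the standard double
transposition. -/
theorem deConjA0 (a : Perm (Fin 6)) (ha : orderOf a = 2) (hsupp : a.support.card = 4) :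
    ∃ g : Perm (Fin 6), g * deA0 * g⁻¹ = a := by
  have hct : ∀ b : Perm (Fin 6), orderOf b = 2 → b.support.card = 4 →
      b.cycleType = Multiset.replicate 2 2 := by
    intro b hb hs
    have h2 : ∀ n ∈ b.cycleType, n = 2 := by
      intro n hn
      have h1 := Equiv.Perm.dvd_of_mem_cycleType hn
      rw [hb] at h1
      have h3 := Equiv.Perm.two_le_of_mem_cycleType hn
      have h4 := Nat.le_of_dvd (by norm_num) h1
      omega
    have h5 := Multiset.eq_replicate_card.mpr h2
    have h6 := Equiv.Perm.sum_cycleType b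
    rw [h5, Multiset.sum_replicate, hs, smul_eq_mul] at h6
    have h7 : Multiset.card b.cycleType = 2 := by omega
    rw [h5, h7]
  have hA : orderOf deA0 = 2 ∧ deA0.support.card = 4 := by
    constructor
    · have : Fact (Nat.Prime 2) := ⟨Nat.prime_two⟩
      exact orderOf_eq_prime (by decide) (by decide)
    · decide
  have hconj : IsConj deA0 a := by
    rw [Equiv.Perm.isConj_iff_cycleType_eq, hct a ha hsupp, hct deA0 hA.1 hA.2]
  obtain ⟨g, hg⟩ := isConj_iff.mp hconj
  exact ⟨g, hg⟩

/-- The centralizer in `A₆` of an involution moving exactly four points is dihedral of order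
eight. -/
theorem deA6_cent (a : ↥(alternatingGroup (Fin 6))) (ha : orderOf a = 2)
    (hsupp : (a : Perm (Fin 6)).support.card = 4) :
    Nonempty (↥(Subgroup.centralizer ({a} : Set ↥(alternatingGroup (Fin 6)))) ≃*
      DihedralGroup 4) := by
  obtain ⟨g, hg⟩ := deConjA0 (a : Perm (Fin 6)) (by rw [Subgroup.orderOf_coe, ha]) hsupp
  let φ : ↥(alternatingGroup (Fin 6)) ≃* ↥(alternatingGroup (Fin 6)) := MulAut.conjNormal g
  have hφ : φ deA0' = a := by
    apply Subtype.ext
    show ((MulAut.conjNormal g deA0' : ↥(alternatingGroup (Fin 6))) : Perm (Fin 6)) = _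
    rw [MulAut.conjNormal_apply]
    exact hg
  obtain ⟨c⟩ := deCentCongr φ deA0'
  rw [hφ] at c
  obtain ⟨e0⟩ := deA0'_iso
  exact ⟨c.symm.trans e0⟩

end Cfsg.Agent.Helper21.DEight
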