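import Mathlib
import Cfsg.Agent.Helper21.DEightD

/-!
# Groups with an involution whose centralizer is dihedral of order 8 (helper21)

Part F: the case of exactly two classes of involutions.  If the central involution `J` of the
dihedral Sylow subgroup `P = C(J)` is conjugate to the reflection `dRef e 0` but not to
`dRef e (-1)`, the group has a subgroup `N` of index two in which `J` has an elementary abelian
centralizer of order four.
-/

set_option autoImplicit false

namespace Cfsg.Agent.Helper21.DEight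

open DihedralGroup Cfsg.Agent.Helper55 Cfsg.Agent.Helper21.DihOrd

/-- The automorphism of the dihedral group of order eight interchanging the two classes of
reflections. -/
def deShift : DihedralGroup 4 ≃* DihedralGroup 4 where
  toFun x := match x with
    | r i => r i
    | sr i => sr (i + 1)
  invFun x := match x with
    | r i => r i
    | sr i => sr (i - 1)
  left_inv := by decide
  right_inv := by decide
  map_mul' := by decide

theorem deD4_par : ∀ k : ZMod 4, (k = 1 ∨ k = 3) →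
    ZMod.castHom (show 2 ∣ 4 by decide) (ZMod 2) k + 0 = 1 := by
  decide

theorem deD4_V : ∀ x : DihedralGroup 4, x * sr 0 = sr 0 * x → x * x = 1 := by decide

theorem deD4_noncomm : ∀ y : DihedralGroup 4, y * sr 0 = sr 0 * y → y ≠ 1 →
    y ≠ r 2 → y * sr 1 ≠ sr 1 * y ∧ y * sr 3 ≠ sr 3 * y := by
  decide

theorem deC2_sq : ∀ a : Multiplicative (ZMod 2), a * a = 1 := by decide

section ctx

variable {G : Type*} [Group G] [Finite G] (P : Sylow 2 G)
  (e : ↥(P : Subgroup G) ≃* DihedralGroup (2 ^ (3 - 1)))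
  (hC : Subgroup.centralizer ({dsJ 3 e} : Set G) ≤ (P : Subgroup G))
  (h0 : IsConj (dsJ 3 e) (dRef e 0))

include h0 in
omit [Finite G] in
theorem deConjRef2 : IsConj (dsJ 3 e) (dRef e 2) := by
  obtain ⟨c, hc⟩ := isConj_iff.mp h0
  rw [isConj_iff]
  refine ⟨dRot e 1 * c, ?_⟩
  have h1 : dRot e 1 * dRef e 0 * (dRot e 1)⁻¹ = dRef e 2 := by
    rw [dRot_conj_dRef]
    congr 1
  rw [← h1, ← hc]
  group

include hC h0 in
/-- A normal subgroup of odd order is trivial (two classes of involutions suffice). -/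
theorem deOddNormalCore (N : Subgroup G) [N.Normal] (hodd : Odd (Nat.card N)) : N = ⊥ := by
  have hordN : ∀ n ∈ N, orderOf n ∣ Nat.card N := by
    intro n hn
    have h := orderOf_dvd_natCard (⟨n, hn⟩ : ↥N)
    rwa [Subgroup.orderOf_mk] at h
  have hfix : ∀ y : G, IsConj (dsJ 3 e) y → ∀ n ∈ N, y * n = n * y → n = 1 := by
    intro y hy n hn hcomm
    obtain ⟨c, hc⟩ := isConj_iff.mp hy
    have hm : c⁻¹ * n * c ∈ (P : Subgroup G) := by
      apply hC
      rw [Subgroup.mem_centralizer_iff]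
      intro z hz
      rw [Set.mem_singleton_iff] at hz
      subst hz
      calc dsJ 3 e * (c⁻¹ * n * c) = c⁻¹ * ((c * dsJ 3 e * c⁻¹) * n) * c := by group
        _ = c⁻¹ * (n * (c * dsJ 3 e * c⁻¹)) * c := by rw [hc, hcomm]
        _ = c⁻¹ * n * c * dsJ 3 e := by group
    obtain ⟨k, hk⟩ := P.isPGroup' ⟨c⁻¹ * n * c, hm⟩
    have hk' : (c⁻¹ * n * c) ^ 2 ^ k = 1 := by
      have := congrArg Subtype.val hk
      simpa using this
    have hnk : n ^ 2 ^ k = 1 := by
      have h1 : n = c * (c⁻¹ * n * c) * c⁻¹ := by group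
      rw [h1, conj_pow, hk']
      group
    have h1 : orderOf n ∣ 2 ^ k := orderOf_dvd_of_pow_eq_one hnk
    have h3 : orderOf n ∣ Nat.gcd (2 ^ k) (Nat.card N) := Nat.dvd_gcd h1 (hordN n hn)
    have hcop : Nat.Coprime (2 ^ k) (Nat.card N) :=
      Nat.Coprime.pow_left k (Nat.coprime_two_left.mpr hodd)
    rw [hcop.gcd_eq_one, Nat.dvd_one] at h3
    exact orderOf_eq_one_iff.mp h3
  have hn2 : 2 ≤ 3 := by norm_num
  have hJτ : dsJ 3 e * dRef e 0 = dRef e 2 := by
    rw [deJ_eq, dRot_mul_dRef]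
    congr 1
  have i1 := deInvert N (dsJ 3 e) (dsJ_mul_self e hn2) (hfix _ (IsConj.refl _))
  have i2 := deInvert N (dRef e 0) (dRef_mul_self e 0) (hfix _ h0)
  have i3 := deInvert N (dRef e 2) (dRef_mul_self e 2) (hfix _ (deConjRef2 P e h0))
  rw [Subgroup.eq_bot_iff_forall]
  intro x hx
  have h1 : dRef e 2 * x * (dRef e 2)⁻¹ = x := by
    rw [← hJτ]
    calc dsJ 3 e * dRef e 0 * x * (dsJ 3 e * dRef e 0)⁻¹
        = dsJ 3 e * (dRef e 0 * x * (dRef e 0)⁻¹) * (dsJ 3 e)⁻¹ := by group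
      _ = dsJ 3 e * x⁻¹ * (dsJ 3 e)⁻¹ := by rw [i2 x hx]
      _ = x := by rw [i1 x⁻¹ (N.inv_mem hx), inv_inv]
  have h2 : x = x⁻¹ := by rw [← i3 x hx, h1]
  have h3 : x ^ 2 = 1 := by
    rw [pow_two]
    nth_rewrite 1 [h2]
    exact inv_mul_cancel x
  have h4 : orderOf x ∣ Nat.gcd 2 (Nat.card N) :=
    Nat.dvd_gcd (orderOf_dvd_of_pow_eq_one h3) (hordN x hx)
  rw [(Nat.coprime_two_left.mpr hodd).gcd_eq_one, Nat.dvd_one] at h4
  exact orderOf_eq_one_iff.mp h4

include h0 in
/-- The subgroup of index two. -/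
theorem deIndexTwo (h1 : ¬ IsConj (dsJ 3 e) (dRef e (-1))) :
    ∃ N : Subgroup G, N.index = 2 ∧ dRef e (-1) ∉ N := by
  have h2 : 2 ∣ 2 ^ (3 - 1) := by decide
  have hno : ∀ (g : G) (j : ZMod (2 ^ (3 - 1))), g * dRef e (-1) * g⁻¹ ≠ dRot e j := by
    intro g j hgj
    apply h1
    have ho : orderOf (dRot e j) = 2 := by
      rw [← hgj, dsOrderOf_conj, orderOf_dRef]
    have hJ := dsRot_eq_J e (by norm_num) ho
    rw [isConj_iff]
    refine ⟨g⁻¹, ?_⟩
    rw [← hJ, ← hgj]
    group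
  have hpar : ∀ (g : G) (k : ZMod (2 ^ (3 - 1))), g * dRef e (-1) * g⁻¹ = dRef e k →
      ZMod.castHom h2 (ZMod 2) k + 0 = 1 := by
    intro g k hgk
    have hconj : ∀ k' : ZMod (2 ^ (3 - 1)), IsConj (dsJ 3 e) (dRef e k') → k' ≠ k := by
      intro k' hk' hkk
      apply h1
      rw [hkk] at hk'
      obtain ⟨c, hc⟩ := isConj_iff.mp hk'
      rw [isConj_iff]
      refine ⟨g⁻¹ * c, ?_⟩
      have h3 : dRef e (-1) = g⁻¹ * dRef e k * g := by rw [← hgk]; group
      rw [h3, ← hc]
      group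
    have hk : k = 1 ∨ k = 3 := by
      rcases deD4_cases k with h | h | h | h
      · exact absurd h.symm (hconj 0 h0)
      · exact Or.inl h
      · exact absurd h.symm (hconj 2 (deConjRef2 P e h0))
      · exact Or.inr h
    exact deD4_par k hk
  have hf := transfer_dihedralPar_ne_one P e h2 0 (-1) hno hpar
  obtain ⟨f, hfdef⟩ : ∃ f : G →* Multiplicative (ZMod 2),
      f = MonoidHom.transfer ((dihedralPar (2 ^ (3 - 1)) h2 0).comp e.toMonoidHom) := ⟨_, rfl⟩
  rw [← hfdef] at hf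
  refine ⟨f.ker, ?_, fun h => hf (MonoidHom.mem_ker.mp h)⟩
  rw [Subgroup.index_ker]
  have hr : f.range = ⊤ := by
    have : Fact (Nat.Prime (Nat.card (Multiplicative (ZMod 2)))) := by
      have : Nat.card (Multiplicative (ZMod 2)) = 2 := by
        rw [Nat.card_eq_fintype_card]; rfl
      rw [this]; exact ⟨Nat.prime_two⟩
    rcases Subgroup.eq_bot_or_eq_top_of_prime_card f.range with h | h
    · exfalso
      apply hf
      have : f (dRef e (-1)) ∈ f.range := ⟨_, rfl⟩
      rw [h] at this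
      exact Subgroup.mem_bot.1 this
    · exact h
  rw [hr, Subgroup.card_top, Nat.card_eq_fintype_card]
  rfl

end ctx

section index2

variable {G : Type*} [Group G] [Finite G] (P : Sylow 2 G)
  (e : ↥(P : Subgroup G) ≃* DihedralGroup (2 ^ (3 - 1)))
  (hC : Subgroup.centralizer ({dsJ 3 e} : Set G) ≤ (P : Subgroup G))
  (h0 : IsConj (dsJ 3 e) (dRef e 0))
  (N : Subgroup G) (hN : N.index = 2) (hρ : dRef e (-1) ∉ N)

include hN in
omit [Finite G] in
theorem deN_J : dsJ 3 e ∈ N := by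
  have h1 : dsJ 3 e = dRot e 1 * dRot e 1 := by
    rw [dRot_mul_dRot, deJ_eq]
    congr 1
  rw [h1]
  exact Subgroup.mul_self_mem_of_index_two hN _

include h0 hN hρ in
omit [Finite G] in
/-- Which elements of the Sylow subgroup lie in `N`. -/
theorem deN_mem (x : DihedralGroup 4) : ((e.symm x : ↥(P : Subgroup G)) : G) ∈ N ↔
    x * sr 0 = sr 0 * x := by
  have hNn : N.Normal := Subgroup.normal_of_index_eq_two hN
  have mJ := deN_J P e N hN
  have mconj : ∀ y : G, IsConj (dsJ 3 e) y → y ∈ N := by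
    intro y hy
    obtain ⟨c, hc⟩ := isConj_iff.mp hy
    rw [← hc]
    exact hNn.conj_mem _ mJ _
  have m0 : dRef e 0 ∈ N := mconj _ h0
  have m2 : dRef e 2 ∈ N := mconj _ (deConjRef2 P e h0)
  have n3 : dRef e 3 ∉ N := hρ
  have n1 : dRef e 1 ∉ N := by
    have h1 : dRef e 1 = dsJ 3 e * dRef e 3 := by
      rw [deJ_eq, dRot_mul_dRef]
      congr 1
    rw [h1, Subgroup.mul_mem_iff_of_index_two hN]
    intro h
    exact n3 (h.mp mJ)
  have r1 : dRot e 1 ∉ N := by
    have h1 : dRot e 1 = dRef e 0 * dRef e 1 := by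
      rw [dRef_mul_dRef]
      congr 1
    rw [h1, Subgroup.mul_mem_iff_of_index_two hN]
    intro h
    exact n1 (h.mp m0)
  have r3 : dRot e 3 ∉ N := by
    have h1 : dRot e 3 = dRef e 0 * dRef e 3 := by
      rw [dRef_mul_dRef]
      congr 1
    rw [h1, Subgroup.mul_mem_iff_of_index_two hN]
    intro h
    exact n3 (h.mp m0)
  have key : ∀ x : DihedralGroup 4, x * sr 0 = sr 0 * x ↔
      (x = r 0 ∨ x = r 2 ∨ x = sr 0 ∨ x = sr 2) := by decide
  rw [key]
  constructor
  · intro hx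
    rcases x with j | j
    · rcases deD4_cases j with rfl | rfl | rfl | rfl
      · exact Or.inl rfl
      · exact absurd hx r1
      · exact Or.inr (Or.inl rfl)
      · exact absurd hx r3
    · rcases deD4_cases j with rfl | rfl | rfl | rfl
      · exact Or.inr (Or.inr (Or.inl rfl))
      · exact absurd hx n1
      · exact Or.inr (Or.inr (Or.inr rfl))
      · exact absurd hx n3
  · rintro (rfl | rfl | rfl | rfl)
    · have : ((e.symm (r 0) : ↥(P : Subgroup G)) : G) = 1 := dRot_zero e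
      rw [this]
      exact N.one_mem
    · exact mJ
    · exact m0
    · exact m2

include hC h0 hN hρ in
omit [Finite G] in
/-- Elements of `N` centralizing `J` correspond to the centralizer of a reflection in the
dihedral group. -/
theorem deN_cent (c : G) (hcN : c ∈ N) (hc : dsJ 3 e * c = c * dsJ 3 e) :
    ∃ x : DihedralGroup 4, x * sr 0 = sr 0 * x ∧ c = ((e.symm x : ↥(P : Subgroup G)) : G) := by
  have hcP : c ∈ (P : Subgroup G) := by
    apply hC
    rw [Subgroup.mem_centralizer_iff]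
    intro y hy
    rw [Set.mem_singleton_iff] at hy
    subst hy
    exact hc
  refine ⟨e ⟨c, hcP⟩, ?_, ?_⟩
  · rw [← deN_mem P e h0 N hN hρ, MulEquiv.symm_apply_apply]
    exact hcN
  · rw [MulEquiv.symm_apply_apply]

include hN hρ in
omit [Finite G] in
/-- Conjugates of `J` in `G` are conjugates under `N`. -/
theorem deN_fusion (y : G) (hy : IsConj (dsJ 3 e) y) : ∃ n ∈ N, n * dsJ 3 e * n⁻¹ = y := by
  obtain ⟨g, hg⟩ := isConj_iff.mp hy
  by_cases hgN : g ∈ N
  · exact ⟨g, hgN, hg⟩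
  · refine ⟨g * dRef e (-1), ?_, ?_⟩
    · rw [Subgroup.mul_mem_iff_of_index_two hN]
      exact ⟨fun h => absurd h hgN, fun h => absurd h hρ⟩
    · have h1 := dsJ_comm_of_mem e (by norm_num : 2 ≤ 3) (dRef_mem e (-1))
      rw [← hg]
      calc g * dRef e (-1) * dsJ 3 e * (g * dRef e (-1))⁻¹
          = g * (dRef e (-1) * dsJ 3 e) * (dRef e (-1))⁻¹ * g⁻¹ := by group
        _ = g * (dsJ 3 e * dRef e (-1)) * (dRef e (-1))⁻¹ * g⁻¹ := by rw [h1]
        _ = g * dsJ 3 e * g⁻¹ := by group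

end index2

end Cfsg.Agent.Helper21.DEight
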