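import Mathlib
import Cfsg.Agent.Helper21.DEightF
import Cfsg.Agent.Helper53.Isolated
import Cfsg.Agent.Helper54.FourCent
import Cfsg.Agent.Helper69.Basic
import Cfsg.Agent.Helper99.SixB
import Cfsg.Agent.S1012

/-!
# Groups with an involution whose centralizer is dihedral of order 8 (helper21)

Part G: the remaining cases.  Zero fusion (the central involution is isolated) and the case of
exactly two classes of involutions, leading to the symmetric groups of degree four and five.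
-/

set_option autoImplicit false

namespace Cfsg.Agent.Helper21.DEight

open DihedralGroup Cfsg.Agent.Helper55 Cfsg.Agent.Helper21.DihOrd

/-- From the conclusion of the `Z*`-theorem to the factorisation `G = C(z) O(G)`. -/
theorem deZstarTop {G : Type*} [Group G] [Finite G] (z : G) (hz : orderOf z = 2)
    (N : Subgroup G) (hN : N.Normal) (hodd : Odd (Nat.card N))
    (hcomm : ∀ g : G, z * g * z⁻¹ * g⁻¹ ∈ N) :
    Subgroup.centralizer ({z} : Set G) ⊔ Cfsg.oddCore G = ⊤ := by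
  have hzz : z * z = 1 := by rw [← pow_two, ← hz, pow_orderOf_eq_one]
  have hzinv : z⁻¹ = z := inv_eq_of_mul_eq_one_left hzz
  have hNO : N ≤ Cfsg.oddCore G := Cfsg.Agent.Helper53.le_oddCore_of_odd N hN hodd
  rw [eq_top_iff]
  intro g _
  obtain ⟨c, hc_def⟩ : ∃ c : G, c = z * g * z⁻¹ * g⁻¹ := ⟨_, rfl⟩
  have hcN : c ∈ N := by rw [hc_def]; exact hcomm g
  have hodd' : Odd (orderOf c) :=
    Odd.of_dvd_nat hodd (Subgroup.orderOf_dvd_natCard N hcN)
  obtain ⟨r, hr⟩ := hodd'
  obtain ⟨d, hd_def⟩ : ∃ d : G, d = c ^ (r + 1) := ⟨_, rfl⟩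
  have hdN : d ∈ N := by rw [hd_def]; exact Subgroup.pow_mem _ hcN _
  have hdd : d * d = c := by
    rw [hd_def, ← pow_add]
    have : r + 1 + (r + 1) = orderOf c + 1 := by omega
    rw [this, pow_succ, pow_orderOf_eq_one, one_mul]
  have hzc : z * c * z⁻¹ = c⁻¹ := by
    rw [hc_def, hzinv]
    calc z * (z * g * z * g⁻¹) * z = (z * z) * g * z * g⁻¹ * z := by group
      _ = g * z * g⁻¹ * z := by rw [hzz, one_mul]
      _ = (z * g * z * g⁻¹)⁻¹ := by
          rw [mul_inv_rev, mul_inv_rev, mul_inv_rev, inv_inv, hzinv]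
          group
  have hzd : z * d * z⁻¹ = d⁻¹ := by
    rw [hd_def, ← conj_pow, hzc, inv_pow]
  have hzg : z * g * z⁻¹ = c * g := by rw [hc_def]; group
  have hdg : d * g ∈ Subgroup.centralizer ({z} : Set G) := by
    rw [Subgroup.mem_centralizer_singleton_iff]
    symm
    calc z * (d * g) = (z * d * z⁻¹) * (z * g * z⁻¹) * z := by group
      _ = d⁻¹ * (c * g) * z := by rw [hzd, hzg]
      _ = d⁻¹ * (d * d * g) * z := by rw [hdd]
      _ = d * g * z := by group
  have : g = d⁻¹ * (d * g) := by group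
  rw [this]
  exact Subgroup.mul_mem _ (Subgroup.mem_sup_right (hNO (N.inv_mem hdN)))
    (Subgroup.mem_sup_left hdg)

theorem deD4_sr_comm : ∀ i : ZMod 4, (sr i : DihedralGroup 4) * sr 0 = sr 0 * sr i →
    i = 0 ∨ i = 2 := by
  decide

section ctx

variable {G : Type*} [Group G] [Finite G] (P : Sylow 2 G)
  (e : ↥(P : Subgroup G) ≃* DihedralGroup (2 ^ (3 - 1)))
  (hC : Subgroup.centralizer ({dsJ 3 e} : Set G) ≤ (P : Subgroup G))

omit [Finite G] in
/-- Without fusion the central involution is isolated in the Sylow subgroup. -/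
theorem deIsolated (h0 : ¬ IsConj (dsJ 3 e) (dRef e 0)) (h1 : ¬ IsConj (dsJ 3 e) (dRef e (-1)))
    (g : G) (hg : g * dsJ 3 e * g⁻¹ ∈ (P : Subgroup G)) : g * dsJ 3 e * g⁻¹ = dsJ 3 e := by
  rcases mem_cases e hg with ⟨j, hj⟩ | ⟨i, hi⟩
  · rw [hj]
    apply dsRot_eq_J e (by norm_num)
    rw [← hj, dsOrderOf_conj, orderOf_dsJ e (by norm_num)]
  · exfalso
    have hconj : IsConj (dsJ 3 e) (dRef e i) := by
      rw [isConj_iff]
      exact ⟨g, hi⟩
    have hstep : ∀ k : ZMod (2 ^ (3 - 1)), IsConj (dsJ 3 e) (dRef e (k + 2)) →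
        IsConj (dsJ 3 e) (dRef e k) := by
      intro k hk
      obtain ⟨c, hc⟩ := isConj_iff.mp hk
      rw [isConj_iff]
      refine ⟨dRot e 1 * c, ?_⟩
      have h1 : dRot e 1 * dRef e (k + 2) * (dRot e 1)⁻¹ = dRef e k := by
        rw [dRot_conj_dRef]
        congr 1
        ring
      rw [← h1, ← hc]
      group
    rcases deD4_cases i with rfl | rfl | rfl | rfl
    · exact h0 hconj
    · exact h1 (hstep _ hconj)
    · exact h0 (hstep _ hconj)
    · exact h1 hconj

end ctx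

section index2

variable {G : Type*} [Group G] [Finite G] (P : Sylow 2 G)
  (e : ↥(P : Subgroup G) ≃* DihedralGroup (2 ^ (3 - 1)))
  (hC : Subgroup.centralizer ({dsJ 3 e} : Set G) ≤ (P : Subgroup G))
  (h0 : IsConj (dsJ 3 e) (dRef e 0))
  (N : Subgroup G) (hN : N.index = 2) (hρ : dRef e (-1) ∉ N)

include hC h0 hN hρ in
omit [Finite G] in
/-- The centralizer in `N` of the central involution is elementary abelian. -/
theorem deN_centSq (hJ : dsJ 3 e ∈ N) (c : ↥N)
    (hc : c ∈ Subgroup.centralizer ({(⟨dsJ 3 e, hJ⟩ : ↥N)} : Set ↥N)) : c ^ 2 = 1 := by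
  rw [Subgroup.mem_centralizer_singleton_iff] at hc
  have hc' : dsJ 3 e * (c : G) = (c : G) * dsJ 3 e := (congrArg Subtype.val hc).symm
  obtain ⟨x, hx, hcx⟩ := deN_cent P e hC h0 N hN hρ (c : G) c.2 hc'
  apply Subtype.ext
  rw [Subgroup.coe_pow, Subgroup.coe_one, hcx, pow_two, ← Subgroup.coe_mul, ← map_mul,
    deD4_V x hx, map_one, Subgroup.coe_one]

include hC h0 hN hρ in
omit [Finite G] in
/-- The centralizer in `N` of the central involution has order four. -/
theorem deN_centCard (hJ : dsJ 3 e ∈ N) :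
    Nat.card ↥(Subgroup.centralizer ({(⟨dsJ 3 e, hJ⟩ : ↥N)} : Set ↥N)) = 4 := by
  have hcomm : ∀ c : ↥N, c ∈ Subgroup.centralizer ({(⟨dsJ 3 e, hJ⟩ : ↥N)} : Set ↥N) ↔
      dsJ 3 e * (c : G) = (c : G) * dsJ 3 e := by
    intro c
    rw [Subgroup.mem_centralizer_singleton_iff]
    constructor
    · intro h
      exact (congrArg Subtype.val h).symm
    · intro h
      exact Subtype.ext h.symm
  have hP : ∀ c : ↥N, c ∈ Subgroup.centralizer ({(⟨dsJ 3 e, hJ⟩ : ↥N)} : Set ↥N) →
      (c : G) ∈ (P : Subgroup G) := by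
    intro c hc
    apply hC
    rw [Subgroup.mem_centralizer_singleton_iff]
    exact ((hcomm c).mp hc).symm
  rw [← deD4_card_sr 0, ← Nat.card_eq_fintype_card]
  refine Nat.card_congr ?_
  exact
    { toFun := fun c => ⟨e ⟨(c.1 : G), hP c.1 c.2⟩, by
        rw [← deN_mem P e h0 N hN hρ, MulEquiv.symm_apply_apply]
        exact c.1.2⟩
      invFun := fun x => ⟨⟨((e.symm x.1 : ↥(P : Subgroup G)) : G),
          (deN_mem P e h0 N hN hρ x.1).mpr x.2⟩, by
        rw [hcomm]
        exact dsJ_comm_of_mem e (by norm_num) (e.symm x.1).2⟩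
      left_inv := by
        intro c
        apply Subtype.ext
        apply Subtype.ext
        simp
      right_inv := by
        intro x
        apply Subtype.ext
        simp }

include hC h0 hN hρ in
/-- The subgroup `N` has no normal `2`-complement. -/
theorem deN_noNPC : ¬ Cfsg.HasNormalPComplement 2 ↥N := by
  intro hnpc
  have : Fact (Nat.Prime 2) := ⟨Nat.prime_two⟩
  have hJ := deN_J P e N hN
  have hNn : N.Normal := Subgroup.normal_of_index_eq_two hN
  have h4 := deN_centCard P e hC h0 N hN hρ hJ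
  have hV : IsPGroup 2 ↥(Subgroup.centralizer ({(⟨dsJ 3 e, hJ⟩ : ↥N)} : Set ↥N)) :=
    IsPGroup.of_card (n := 2) (by rw [h4]; norm_num)
  obtain ⟨Q, hQ⟩ := hV.exists_le_sylow
  -- the Sylow subgroup of `N` has order four
  obtain ⟨m, hm, hG⟩ := deCardG P e
  have hcN : Nat.card ↥N = 4 * m := by
    have := Subgroup.card_mul_index N
    rw [hN, hG] at this
    omega
  obtain ⟨k, hk⟩ := (IsPGroup.iff_card (p := 2)).mp Q.isPGroup'
  have hk2 : k ≤ 2 := by
    by_contra hcon
    have h3 : 2 ^ 3 ∣ 2 ^ k := pow_dvd_pow 2 (by omega)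
    have h5 : 2 ^ k ∣ 4 * m := by
      rw [← hk, ← hcN]
      exact Subgroup.card_subgroup_dvd_card _
    have h6 : 2 ^ 3 ∣ 4 * m := h3.trans h5
    obtain ⟨r, hr⟩ := hm
    omega
  have hQle : Nat.card ↥(Q : Subgroup ↥N) ≤ 4 := by
    rw [hk]
    calc 2 ^ k ≤ 2 ^ 2 := Nat.pow_le_pow_right (by norm_num) hk2
      _ = 4 := by norm_num
  have hVQ : Subgroup.centralizer ({(⟨dsJ 3 e, hJ⟩ : ↥N)} : Set ↥N) = (Q : Subgroup ↥N) :=
    Subgroup.eq_of_le_of_card_ge hQ (by rw [h4]; exact hQle)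
  -- fusion
  obtain ⟨n, hn, hnJ⟩ := deN_fusion P e N hN hρ (dRef e 0) h0
  have hτN : dRef e 0 ∈ N := by
    rw [← hnJ]
    exact hNn.conj_mem _ hJ _
  have hJQ : (⟨dsJ 3 e, hJ⟩ : ↥N) ∈ (Q : Subgroup ↥N) := by
    rw [← hVQ, Subgroup.mem_centralizer_singleton_iff]
  have hτQ : (⟨dRef e 0, hτN⟩ : ↥N) ∈ (Q : Subgroup ↥N) := by
    rw [← hVQ, Subgroup.mem_centralizer_singleton_iff]
    apply Subtype.ext
    exact (dsJ_comm_of_mem e (by norm_num) (dRef_mem e 0)).symm
  have hg : (⟨n, hn⟩ : ↥N) * ⟨dsJ 3 e, hJ⟩ * (⟨n, hn⟩ : ↥N)⁻¹ = ⟨dRef e 0, hτN⟩ :=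
    Subtype.ext hnJ
  obtain ⟨c, hcQ, hc⟩ := conj_in_sylow_of_npc hnpc Q hJQ hτQ _ hg
  rw [← hVQ, Subgroup.mem_centralizer_singleton_iff] at hcQ
  have h7 : (⟨dRef e 0, hτN⟩ : ↥N) = ⟨dsJ 3 e, hJ⟩ := by
    rw [← hc, hcQ]
    group
  have h8 : ((⟨dRef e 0, hτN⟩ : ↥N) : G) = ((⟨dsJ 3 e, hJ⟩ : ↥N) : G) := by rw [h7]
  exact dRef_ne_dRot e 0 _ h8

include h0 hN hρ in
/-- Involutions of `N` are conjugate to the central involution. -/
theorem deN_invol (y : G) (hy : orderOf y = 2) (hyN : y ∈ N) : IsConj (dsJ 3 e) y := by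
  have hNn : N.Normal := Subgroup.normal_of_index_eq_two hN
  have hfin : ∀ (g t : G), IsConj (dsJ 3 e) t → g * y * g⁻¹ = t → IsConj (dsJ 3 e) y := by
    intro g t ht hgt
    obtain ⟨c, hc⟩ := isConj_iff.mp ht
    rw [isConj_iff]
    refine ⟨g⁻¹ * c, ?_⟩
    have h3 : y = g⁻¹ * t * g := by rw [← hgt]; group
    rw [h3, ← hc]
    group
  obtain ⟨g, ⟨j, hj⟩ | ⟨i, hi⟩⟩ := exists_conj_dRot_or_dRef P e y hy
  · have ho : orderOf (dRot e j) = 2 := by rw [← hj, dsOrderOf_conj, hy]
    have hJ := dsRot_eq_J e (by norm_num) ho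
    exact hfin g _ (IsConj.refl _) (hj.trans hJ)
  · have hmem : dRef e i ∈ N := by
      rw [← hi]
      exact hNn.conj_mem _ hyN _
    have hi' := (deN_mem P e h0 N hN hρ (sr i)).mp hmem
    rcases deD4_sr_comm i hi' with rfl | rfl
    · exact hfin g _ h0 hi
    · exact hfin g _ (deConjRef2 P e h0) hi

include hC in
omit [Finite G] in
/-- No element of order three commutes with a conjugate of the central involution. -/
theorem deNoThree (u w : G) (hu : IsConj (dsJ 3 e) u) (hw : orderOf w = 3)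
    (huw : u * w = w * u) : False := by
  obtain ⟨c, hc⟩ := isConj_iff.mp hu
  have hm : c⁻¹ * w * c ∈ (P : Subgroup G) := by
    apply hC
    rw [Subgroup.mem_centralizer_singleton_iff]
    calc c⁻¹ * w * c * dsJ 3 e = c⁻¹ * (w * (c * dsJ 3 e * c⁻¹)) * c := by group
      _ = c⁻¹ * ((c * dsJ 3 e * c⁻¹) * w) * c := by rw [hc, huw]
      _ = dsJ 3 e * (c⁻¹ * w * c) := by group
  obtain ⟨k, hk⟩ := P.isPGroup' ⟨c⁻¹ * w * c, hm⟩
  have hk' : (c⁻¹ * w * c) ^ 2 ^ k = 1 := by
    have := congrArg Subtype.val hk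
    simpa using this
  have hnk : w ^ 2 ^ k = 1 := by
    have h1 : w = c * (c⁻¹ * w * c) * c⁻¹ := by group
    rw [h1, conj_pow, hk']
    group
  have h1 : orderOf w ∣ 2 ^ k := orderOf_dvd_of_pow_eq_one hnk
  rw [hw] at h1
  have h2 : 3 ∣ 2 := Nat.Prime.dvd_of_dvd_pow Nat.prime_three h1
  omega

include hC h0 hN hρ in
/-- If `N` has a normal elementary abelian subgroup of order two or four, the group is the
symmetric group of degree four. -/
theorem deN_S4 (E : Subgroup ↥N) (hE : E.Normal) (hEl : Cfsg.IsElementaryAbelian 2 E)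
    (hcard : Nat.card ↥E = 2 ∨ Nat.card ↥E = 4) : Nonempty (G ≃* Equiv.Perm (Fin 4)) := by
  classical
  have : Fact (Nat.Prime 2) := ⟨Nat.prime_two⟩
  have hJ := deN_J P e N hN
  have hNn : N.Normal := Subgroup.normal_of_index_eq_two hN
  -- the central involution lies in `E`
  have h2E : 2 ∣ Nat.card ↥E := by
    rcases hcard with h | h <;> rw [h] <;> norm_num
  obtain ⟨u, hu⟩ := exists_prime_orderOf_dvd_card' (G := ↥E) 2 h2E
  have hu' : orderOf (((u : ↥N) : G)) = 2 := by
    rw [Subgroup.orderOf_coe, Subgroup.orderOf_coe, hu]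
  have hconj := deN_invol P e h0 N hN hρ _ hu' (u : ↥N).2
  obtain ⟨n, hn, hnJ⟩ := deN_fusion P e N hN hρ _ hconj
  have hJE : (⟨dsJ 3 e, hJ⟩ : ↥N) ∈ E := by
    have h1 : (⟨dsJ 3 e, hJ⟩ : ↥N) = (⟨n, hn⟩ : ↥N)⁻¹ * (u : ↥N) * (⟨n, hn⟩ : ↥N)⁻¹⁻¹ := by
      apply Subtype.ext
      show dsJ 3 e = n⁻¹ * ((u : ↥N) : G) * n⁻¹⁻¹
      rw [← hnJ]
      group
    rw [h1]
    exact hE.conj_mem _ u.2 _
  -- counting conjugates
  have h4 := deN_centCard P e hC h0 N hN hρ hJ
  obtain ⟨m, hm, hG⟩ := deCardG P e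
  have hcN : Nat.card ↥N = 4 * m := by
    have := Subgroup.card_mul_index N
    rw [hN, hG] at this
    omega
  have hidx : (Subgroup.centralizer ({(⟨dsJ 3 e, hJ⟩ : ↥N)} : Set ↥N)).index = m := by
    have := Subgroup.card_mul_index (Subgroup.centralizer ({(⟨dsJ 3 e, hJ⟩ : ↥N)} : Set ↥N))
    rw [h4, hcN] at this
    omega
  have hlt : m < Nat.card ↥E := by
    rw [← hidx, Cfsg.Agent.Helper69.index_centralizer_eq_card_conj]
    have hmemE : ∀ y : {y : ↥N // IsConj (⟨dsJ 3 e, hJ⟩ : ↥N) y}, (y : ↥N) ∈ E := by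
      intro y
      obtain ⟨c, hc⟩ := isConj_iff.mp y.2
      rw [← hc]
      exact hE.conj_mem _ hJE _
    have hinj : Function.Injective
        (fun y : {y : ↥N // IsConj (⟨dsJ 3 e, hJ⟩ : ↥N) y} => (⟨(y : ↥N), hmemE y⟩ : ↥E)) := by
      intro a b hab
      apply Subtype.ext
      have h := congrArg (fun t : ↥E => (t : ↥N)) hab
      exact h
    have hnot : (1 : ↥E) ∉ Set.range
        (fun y : {y : ↥N // IsConj (⟨dsJ 3 e, hJ⟩ : ↥N) y} => (⟨(y : ↥N), hmemE y⟩ : ↥E)) := by
      rintro ⟨y, hy⟩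
      have h1 : (y : ↥N) = 1 := congrArg Subtype.val hy
      have h2 := y.2
      rw [h1, isConj_one_left] at h2
      have h3 : dsJ 3 e = 1 := congrArg Subtype.val h2
      exact dsJ_ne_one e (by norm_num) h3
    letI : Fintype {y : ↥N // IsConj (⟨dsJ 3 e, hJ⟩ : ↥N) y} := Fintype.ofFinite _
    letI : Fintype ↥E := Fintype.ofFinite _
    rw [Nat.card_eq_fintype_card, Nat.card_eq_fintype_card]
    exact Fintype.card_lt_of_injective_of_notMem _ hinj hnot
  have hm1 : m ≠ 1 := by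
    intro h
    rw [h, Subgroup.index_eq_one] at hidx
    obtain ⟨n', hn', hnJ'⟩ := deN_fusion P e N hN hρ (dRef e 0) h0
    have h1 : (⟨n', hn'⟩ : ↥N) ∈ Subgroup.centralizer ({(⟨dsJ 3 e, hJ⟩ : ↥N)} : Set ↥N) := by
      rw [hidx]
      exact Subgroup.mem_top _
    rw [Subgroup.mem_centralizer_singleton_iff] at h1
    have h2 : n' * dsJ 3 e = dsJ 3 e * n' := congrArg Subtype.val h1
    have h3 : dRef e 0 = dsJ 3 e := by
      rw [← hnJ', h2]
      group
    exact dRef_ne_dRot e 0 _ h3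
  have hm3 : m = 3 := by
    obtain ⟨r, hr⟩ := hm
    have : m < 4 := by
      rcases hcard with h | h <;> rw [h] at hlt <;> omega
    omega
  have hG24 : Nat.card G = 24 := by rw [hG, hm3]
  -- no elements of order six
  have h6 : ∀ g : G, orderOf g ≠ 6 := by
    intro g0 hg6
    have hu2 : orderOf (g0 ^ 3) = 2 := by
      rw [orderOf_pow' g0 (by norm_num), hg6]
      rfl
    obtain ⟨c, hcase⟩ := exists_conj_dRot_or_dRef P e (g0 ^ 3) hu2
    obtain ⟨g, hg_def⟩ : ∃ g : G, g = c * g0 * c⁻¹ := ⟨_, rfl⟩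
    have hg6' : orderOf g = 6 := by rw [hg_def, dsOrderOf_conj, hg6]
    rw [← conj_pow, ← hg_def] at hcase
    have hu2' : orderOf (g ^ 3) = 2 := by
      rw [orderOf_pow' g (by norm_num), hg6']
      rfl
    have hw3 : orderOf (g ^ 2) = 3 := by
      rw [orderOf_pow' g (by norm_num), hg6']
      rfl
    have hcomm : g ^ 3 * g ^ 2 = g ^ 2 * g ^ 3 := pow_mul_comm g 3 2
    rcases hcase with ⟨j, hj⟩ | ⟨i, hi⟩
    · have ho : orderOf (dRot e j) = 2 := by rw [← hj, hu2']
      have hJ' := dsRot_eq_J e (by norm_num) ho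
      have h1 : IsConj (dsJ 3 e) (g ^ 3) := by
        rw [hj, hJ']
      exact deNoThree P e hC _ _ h1 hw3 hcomm
    · have hodd : i = 1 ∨ i = 3 := by
        rcases deD4_cases i with rfl | rfl | rfl | rfl
        · exfalso
          have h1 : IsConj (dsJ 3 e) (g ^ 3) := by
            rw [hi]
            exact h0
          exact deNoThree P e hC _ _ h1 hw3 hcomm
        · exact Or.inl rfl
        · exfalso
          have h1 : IsConj (dsJ 3 e) (g ^ 3) := by
            rw [hi]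
            exact deConjRef2 P e h0
          exact deNoThree P e hC _ _ h1 hw3 hcomm
        · exact Or.inr rfl
      obtain ⟨w, hw_def⟩ : ∃ w : G, w = g ^ 2 := ⟨_, rfl⟩
      rw [← hw_def] at hw3 hcomm
      rw [hi] at hcomm
      have hwN : w ∈ N := by
        rw [hw_def, pow_two]
        exact Subgroup.mul_self_mem_of_index_two hN g
      have hJ'N : w * dsJ 3 e * w⁻¹ ∈ N := hNn.conj_mem _ hJ _
      have hJ'E : (⟨w * dsJ 3 e * w⁻¹, hJ'N⟩ : ↥N) ∈ E := by
        have h1 : (⟨w * dsJ 3 e * w⁻¹, hJ'N⟩ : ↥N) =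
            (⟨w, hwN⟩ : ↥N) * ⟨dsJ 3 e, hJ⟩ * (⟨w, hwN⟩ : ↥N)⁻¹ := rfl
        rw [h1]
        exact hE.conj_mem _ hJE _
      have hcommE : dsJ 3 e * (w * dsJ 3 e * w⁻¹) = (w * dsJ 3 e * w⁻¹) * dsJ 3 e := by
        haveI := hEl.1
        have h1 := mul_comm' (⟨⟨dsJ 3 e, hJ⟩, hJE⟩ : ↥E) ⟨⟨w * dsJ 3 e * w⁻¹, hJ'N⟩, hJ'E⟩
        have h2 := congrArg (fun t : ↥E => ((t : ↥N) : G)) h1
        exact h2
      obtain ⟨x, hx, hJx⟩ := deN_cent P e hC h0 N hN hρ _ hJ'N hcommE
      have hx1 : x ≠ 1 := by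
        intro h
        rw [h, map_one, Subgroup.coe_one] at hJx
        have h3 : dsJ 3 e = 1 := by
          have h4 : dsJ 3 e = w⁻¹ * (w * dsJ 3 e * w⁻¹) * w := by group
          rw [h4, hJx]
          group
        exact dsJ_ne_one e (by norm_num) h3
      have hx2 : x ≠ r 2 := by
        intro h
        rw [h] at hJx
        have h3 : w * dsJ 3 e * w⁻¹ = dsJ 3 e := hJx
        have h4 : dsJ 3 e * w = w * dsJ 3 e := by
          nth_rewrite 1 [← h3]
          group
        exact deNoThree P e hC _ _ (IsConj.refl _) hw3 h4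
      have hJu : dsJ 3 e * dRef e i = dRef e i * dsJ 3 e :=
        dsJ_comm_of_mem e (by norm_num) (dRef_mem e i)
      have hcomm' : dRef e i * w⁻¹ = w⁻¹ * dRef e i := by
        calc dRef e i * w⁻¹ = w⁻¹ * (w * dRef e i) * w⁻¹ := by group
          _ = w⁻¹ * (dRef e i * w) * w⁻¹ := by rw [hcomm]
          _ = w⁻¹ * dRef e i := by group
      have hcu : dRef e i * (w * dsJ 3 e * w⁻¹) = (w * dsJ 3 e * w⁻¹) * dRef e i := by
        calc dRef e i * (w * dsJ 3 e * w⁻¹) = (dRef e i * w) * dsJ 3 e * w⁻¹ := by group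
          _ = (w * dRef e i) * dsJ 3 e * w⁻¹ := by rw [hcomm]
          _ = w * (dRef e i * dsJ 3 e) * w⁻¹ := by group
          _ = w * (dsJ 3 e * dRef e i) * w⁻¹ := by rw [hJu]
          _ = w * dsJ 3 e * (dRef e i * w⁻¹) := by group
          _ = w * dsJ 3 e * (w⁻¹ * dRef e i) := by rw [hcomm']
          _ = w * dsJ 3 e * w⁻¹ * dRef e i := by group
      rw [hJx] at hcu
      have h5 : e.symm (sr i) * e.symm x = e.symm x * e.symm (sr i) := Subtype.ext hcu
      rw [← map_mul, ← map_mul] at h5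
      have h6 := e.symm.injective h5
      have h7 := deD4_noncomm x hx hx1 hx2
      rcases hodd with rfl | rfl
      · exact h7.1 h6.symm
      · exact h7.2 h6.symm
  exact Cfsg.Agent.S1012.result hG24 h6

theorem deArith6 (k : ℕ) (hdvd : k ∣ 24) (hmod : k % 5 = 1) (hne : k ≠ 1) : k = 6 := by
  have hle : k ≤ 24 := Nat.le_of_dvd (by norm_num) hdvd
  interval_cases k <;> first | rfl | omega

include hC h0 hN hρ in
/-- If `N` has no normal elementary abelian subgroup of order two or four, the group is the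
symmetric group of degree five. -/
theorem deN_S5 (hne : ∀ E : Subgroup ↥N, E.Normal → Cfsg.IsElementaryAbelian 2 E →
      Nat.card ↥E ≠ 2 ∧ Nat.card ↥E ≠ 4) : Nonempty (G ≃* Equiv.Perm (Fin 5)) := by
  classical
  have hJ := deN_J P e N hN
  have hNn : N.Normal := Subgroup.normal_of_index_eq_two hN
  have hoJ : orderOf (⟨dsJ 3 e, hJ⟩ : ↥N) = 2 := by
    rw [← Subgroup.orderOf_coe]
    exact orderOf_dsJ e (by norm_num)
  obtain ⟨φ⟩ := Cfsg.Agent.Helper54.a5_of_four_centralizer (⟨dsJ 3 e, hJ⟩ : ↥N) hoJ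
    (deN_centCard P e hC h0 N hN hρ hJ) (deN_centSq P e hC h0 N hN hρ hJ)
    (deN_noNPC P e hC h0 N hN hρ) hne
  have hN60 : Nat.card ↥N = 60 := by
    rw [Nat.card_congr φ.toEquiv, Nat.card_eq_fintype_card]
    have h := two_mul_card_alternatingGroup (α := Fin 5)
    rw [Fintype.card_perm, Fintype.card_fin] at h
    have h5 : Nat.factorial 5 = 120 := rfl
    omega
  have hG120 : Nat.card G = 120 := by
    have := Subgroup.card_mul_index N
    rw [hN, hN60] at this
    omega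
  have hNsimple : IsSimpleGroup ↥N := by
    haveI := alternatingGroup.isSimpleGroup_five
    exact φ.isSimpleGroup
  have : Fact (Nat.Prime 5) := ⟨by norm_num⟩
  -- the number of Sylow 5-subgroups is six
  obtain ⟨Q⟩ : Nonempty (Sylow 5 G) := inferInstance
  have hQ5 : Nat.card ↥(Q : Subgroup G) = 5 := by
    rw [Sylow.card_eq_multiplicity, hG120]
    have h1 : (120 : ℕ).factorization 5 = 1 := by
      have h2 : (120 : ℕ) = 5 ^ 1 * 24 := by norm_num
      rw [h2, Nat.factorization_mul (by norm_num) (by norm_num),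
        Nat.Prime.factorization_pow (by norm_num)]
      simp [Nat.factorization_eq_zero_of_not_dvd]
    rw [h1, pow_one]
  have hQidx : (Q : Subgroup G).index = 24 := by
    have := Subgroup.card_mul_index (Q : Subgroup G)
    rw [hQ5, hG120] at this
    omega
  have hn5dvd : Nat.card (Sylow 5 G) ∣ 24 := by
    rw [← hQidx]
    exact Sylow.card_dvd_index Q
  have hn5mod : Nat.card (Sylow 5 G) % 5 = 1 := card_sylow_modEq_one 5 G
  have hn5ne : Nat.card (Sylow 5 G) ≠ 1 := by
    intro h1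
    have hsub : Subsingleton (Sylow 5 G) := (Nat.card_eq_one_iff_unique.mp h1).1
    haveI : (Q : Subgroup G).Normal := Sylow.normal_of_subsingleton Q
    have hodd : Odd (Nat.card ↥(Q : Subgroup G)) := by
      rw [hQ5]
      decide
    have hbot := deOddNormalCore P e hC h0 (Q : Subgroup G) hodd
    rw [hbot, Subgroup.card_bot] at hQ5
    omega
  have hn5 : Nat.card (Sylow 5 G) = 6 := deArith6 _ hn5dvd hn5mod hn5ne
  have hnorm : Nat.card ↥(Subgroup.normalizer (Q : Set G)) = 20 := by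
    have h1 := Subgroup.card_mul_index (Subgroup.normalizer (Q : Set G))
    rw [← Sylow.card_eq_index_normalizer Q, hn5, hG120] at h1
    omega
  -- the action on the Sylow 5-subgroups is faithful
  obtain ⟨ψ, hψ⟩ : ∃ ψ : G →* Equiv.Perm (Sylow 5 G), ψ = MulAction.toPermHom G (Sylow 5 G) :=
    ⟨_, rfl⟩
  have hfix : ∀ k ∈ ψ.ker, ∀ R : Sylow 5 G, k • R = R := by
    intro k hk R
    rw [MonoidHom.mem_ker, hψ] at hk
    have h1 := congrArg (fun σ : Equiv.Perm (Sylow 5 G) => σ R) hk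
    simpa using h1
  have hKN : ψ.ker ≤ Subgroup.normalizer (Q : Set G) := by
    intro k hk
    exact Sylow.smul_eq_iff_mem_normalizer.mp (hfix k hk Q)
  have hdisj : Disjoint ψ.ker N := by
    rw [← Subgroup.subgroupOf_eq_bot]
    rcases (inferInstance : (ψ.ker.subgroupOf N).Normal).eq_bot_or_eq_top with h | h
    · exact h
    · exfalso
      rw [Subgroup.subgroupOf_eq_top] at h
      have h1 := Subgroup.card_dvd_of_le (h.trans hKN)
      rw [hN60, hnorm] at h1
      omega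
  have hker : ∀ k : G, ψ k = 1 → k = 1 := by
    intro k hk
    have hkK : k ∈ ψ.ker := MonoidHom.mem_ker.mpr hk
    have hcen : ∀ g : G, g * k = k * g := by
      intro g
      have h1 : g * k * g⁻¹ * k⁻¹ ∈ ψ.ker :=
        mul_mem ((MonoidHom.normal_ker ψ).conj_mem _ hkK _) (inv_mem hkK)
      have h2 : g * k * g⁻¹ * k⁻¹ ∈ N := by
        rw [Subgroup.mul_mem_iff_of_index_two hN, Subgroup.inv_mem_iff]
        constructor
        · intro h
          have h3 := hNn.conj_mem _ h g⁻¹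
          have h4 : g⁻¹ * (g * k * g⁻¹) * g⁻¹⁻¹ = k := by group
          rwa [h4] at h3
        · intro h
          exact hNn.conj_mem _ h g
      have h3 : g * k * g⁻¹ * k⁻¹ = 1 := by
        have := Subgroup.disjoint_def.mp hdisj h1 h2
        exact this
      calc g * k = (g * k * g⁻¹ * k⁻¹) * k * g := by group
        _ = k * g := by rw [h3, one_mul]
    rcases deCentral P e hC k (fun p _ => hcen p) with h | h
    · exact h
    · exfalso
      have h1 : dsJ 3 e = 1 := by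
        have := Subgroup.disjoint_def.mp hdisj (h ▸ hkK) hJ
        exact this
      exact dsJ_ne_one e (by norm_num) h1
  have hinj : Function.Injective ψ := (injective_iff_map_eq_one ψ).mpr hker
  -- transport to the symmetric group of degree six
  obtain ⟨θ, hθ⟩ : ∃ θ : G →* Equiv.Perm (Fin 6), Function.Injective θ := by
    refine ⟨(Equiv.permCongrHom (Finite.equivFinOfCardEq hn5)).toMonoidHom.comp ψ, ?_⟩
    exact (Equiv.permCongrHom (Finite.equivFinOfCardEq hn5)).injective.comp hinj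
  have hrange : Nat.card ↥θ.range = 120 := by
    rw [← hG120]
    exact Nat.card_congr (MonoidHom.ofInjective hθ).toEquiv.symm
  have hidx : θ.range.index = 6 := by
    have h1 := Subgroup.card_mul_index θ.range
    rw [hrange, Nat.card_eq_fintype_card, Fintype.card_perm, Fintype.card_fin] at h1
    have h6 : Nat.factorial 6 = 720 := rfl
    omega
  obtain ⟨η⟩ := Cfsg.Agent.Helper99.six_index_equiv θ.range hidx
  exact ⟨(MonoidHom.ofInjective hθ).trans η⟩

end index2

section ctx2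

variable {G : Type*} [Group G] [Finite G] (P : Sylow 2 G)
  (e : ↥(P : Subgroup G) ≃* DihedralGroup (2 ^ (3 - 1)))
  (hC : Subgroup.centralizer ({dsJ 3 e} : Set G) ≤ (P : Subgroup G))

include hC in
/-- **Two classes of involutions.**  The group is a symmetric group of degree four or five. -/
theorem deTwoClass (h0 : IsConj (dsJ 3 e) (dRef e 0)) (h1 : ¬ IsConj (dsJ 3 e) (dRef e (-1))) :
    Nonempty (G ≃* Equiv.Perm (Fin 4)) ∨ Nonempty (G ≃* Equiv.Perm (Fin 5)) := by
  obtain ⟨N, hN, hρ⟩ := deIndexTwo P e h0 h1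
  by_cases hne : ∀ E : Subgroup ↥N, E.Normal → Cfsg.IsElementaryAbelian 2 E →
      Nat.card ↥E ≠ 2 ∧ Nat.card ↥E ≠ 4
  · exact Or.inr (deN_S5 P e hC h0 N hN hρ hne)
  · push Not at hne
    obtain ⟨E, hE, hEl, hc⟩ := hne
    refine Or.inl (deN_S4 P e hC h0 N hN hρ E hE hEl ?_)
    by_cases h2 : Nat.card ↥E = 2
    · exact Or.inl h2
    · exact Or.inr (hc h2)

omit [Finite G] in
/-- Reflections whose indices differ by two are conjugate. -/
theorem deConjStep (k : ZMod (2 ^ (3 - 1))) (h : IsConj (dsJ 3 e) (dRef e (k + 2))) :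
    IsConj (dsJ 3 e) (dRef e k) := by
  obtain ⟨c, hc⟩ := isConj_iff.mp h
  rw [isConj_iff]
  refine ⟨dRot e 1 * c, ?_⟩
  have h1 : dRot e 1 * dRef e (k + 2) * (dRot e 1)⁻¹ = dRef e k := by
    rw [dRot_conj_dRef]
    congr 1
    ring
  rw [← h1, ← hc]
  group

end ctx2

end Cfsg.Agent.Helper21.DEight
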