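import Mathlib
import Cfsg.Agent.Helper21.DEightC
import Cfsg.Agent.Helper21.DEightG
import Cfsg.Agent.S0215

/-!
# Groups with an involution whose centralizer is dihedral of order 8 (helper21)

Part H: the assembly.  A finite group with an involution `z` whose centralizer is dihedral of order
eight satisfies `G = C(z) O(G)`, or is a symmetric group of degree four or five, or is simple of
order `168` or `360`.
-/

set_option autoImplicit false

namespace Cfsg.Agent.Helper21.DEight

open DihedralGroup Cfsg.Agent.Helper55 Cfsg.Agent.Helper21.DihOrd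

theorem deFinal {G : Type*} [Group G] [Finite G] (z : G) (hz : orderOf z = 2)
    (e : ↥(Subgroup.centralizer ({z} : Set G)) ≃* DihedralGroup 4) :
    Subgroup.centralizer ({z} : Set G) ⊔ Cfsg.oddCore G = ⊤ ∨
      Nonempty (G ≃* Equiv.Perm (Fin 4)) ∨ Nonempty (G ≃* Equiv.Perm (Fin 5)) ∨
      (IsSimpleGroup G ∧ (Nat.card G = 168 ∨ Nat.card G = 360)) := by
  obtain ⟨P, e', hJz, hPC⟩ := deSetup z hz e
  have hC : Subgroup.centralizer ({dsJ 3 e'} : Set G) ≤ (P : Subgroup G) := by
    rw [hJz, hPC]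
  by_cases h0 : IsConj (dsJ 3 e') (dRef e' 0)
  · by_cases h1 : IsConj (dsJ 3 e') (dRef e' (-1))
    · right; right; right
      exact ⟨deSimple P e' hC h0 h1, deOrder P e' hC h0 h1⟩
    · rcases deTwoClass P e' hC h0 h1 with h | h
      · exact Or.inr (Or.inl h)
      · exact Or.inr (Or.inr (Or.inl h))
  · by_cases h1 : IsConj (dsJ 3 e') (dRef e' (-1))
    · obtain ⟨e₂, he₂⟩ : ∃ e₂ : ↥(P : Subgroup G) ≃* DihedralGroup (2 ^ (3 - 1)),
          e₂ = e'.trans deShift := ⟨_, rfl⟩
      have hJ2 : dsJ 3 e₂ = dsJ 3 e' := by rw [he₂]; rfl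
      have hR0 : dRef e₂ 0 = dRef e' (-1) := by rw [he₂]; rfl
      have hR1 : dRef e₂ (-1) = dRef e' 2 := by rw [he₂]; rfl
      have hC2 : Subgroup.centralizer ({dsJ 3 e₂} : Set G) ≤ (P : Subgroup G) := by
        rw [hJ2]
        exact hC
      have h0' : IsConj (dsJ 3 e₂) (dRef e₂ 0) := by
        rw [hJ2, hR0]
        exact h1
      have h1' : ¬ IsConj (dsJ 3 e₂) (dRef e₂ (-1)) := by
        rw [hJ2, hR1]
        intro h
        exact h0 (deConjStep P e' 0 h)
      rcases deTwoClass P e₂ hC2 h0' h1' with h | h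
      · exact Or.inr (Or.inl h)
      · exact Or.inr (Or.inr (Or.inl h))
    · left
      have ho : orderOf (dsJ 3 e') = 2 := orderOf_dsJ e' (by norm_num)
      obtain ⟨N, hNn, hodd, hcomm⟩ := Cfsg.Agent.S0215.result P (dsJ 3 e') ho (dsJ_mem e')
        (fun g hg => deIsolated P e' h0 h1 g hg)
      rw [← hJz]
      exact deZstarTop _ ho N hNn hodd hcomm

end Cfsg.Agent.Helper21.DEight
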