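/-
Helper library of seat helper21: groups with a Klein four Sylow 2-subgroup, one class of
involutions, and in which the involutions centralizing a given involution commute pairwise
(group-theoretic counting for the order formula of `KFChar`).
-/
import Mathlib
import Cfsg.Agent.Helper21.KFChar
import Cfsg.Agent.Helper55.KleinFusion
import Cfsg.Agent.Helper35.SZ
import Cfsg.Agent.Helper41.Order60

set_option autoImplicit false

namespace Cfsg.Agent.Helper21.KF

open Cfsg
open scoped Classical Pointwise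

universe u

variable {G : Type u} [Group G]

/-- The hypotheses: Klein four Sylow 2-subgroup, one class of involutions, and the involutions
commuting with a given involution commute pairwise. -/
structure Hyp (P : Sylow 2 G) : Prop where
  klein : IsKleinFour (P : Subgroup G)
  conj : ∀ s t : G, orderOf s = 2 → orderOf t = 2 → IsConj s t
  comm : ∀ z a b : G, orderOf z = 2 → orderOf a = 2 → orderOf b = 2 → a * z = z * a →
    b * z = z * b → a * b = b * a

theorem mul_self_of_orderOf {a : G} (ha : orderOf a = 2) : a * a = 1 := by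
  rw [← pow_two, ← ha, pow_orderOf_eq_one]

theorem inv_of_orderOf {a : G} (ha : orderOf a = 2) : a⁻¹ = a :=
  inv_eq_of_mul_eq_one_left (mul_self_of_orderOf ha)

theorem ne_one_of_orderOf {a : G} (ha : orderOf a = 2) : a ≠ 1 := by
  rintro rfl; rw [orderOf_one] at ha; norm_num at ha

theorem orderOf_two_of {a : G} (h1 : a * a = 1) (h2 : a ≠ 1) : orderOf a = 2 :=
  orderOf_eq_prime (by rw [pow_two]; exact h1) h2

section finite

variable [Finite G] {P : Sylow 2 G}

omit [Finite G] in
/-- An involution commuting with an involution of `P` lies in `P`. -/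
theorem Hyp.mem_of_commute (h : Hyp P) {z a : G} (hz : z ∈ (P : Subgroup G))
    (hz2 : orderOf z = 2) (ha : orderOf a = 2) (haz : a * z = z * a) : a ∈ (P : Subgroup G) := by
  have : Fact (Nat.Prime 2) := ⟨Nat.prime_two⟩
  have hcomm : ∀ p ∈ (P : Subgroup G), a * p = p * a := by
    intro p hp
    by_cases hp1 : p = 1
    · rw [hp1, mul_one, one_mul]
    · exact h.comm z a p hz2 ha (Helper55.klein_orderOf h.klein hp hp1) haz
        (Helper55.klein_comm h.klein hp hz)
  have hnorm : a ∈ Subgroup.normalizer ((P : Subgroup G) : Set G) := by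
    rw [Subgroup.mem_normalizer_iff]
    intro p
    constructor
    · intro hp
      rw [hcomm p hp, mul_inv_cancel_right]; exact hp
    · intro hp
      have h1 := hcomm _ hp
      have h4 : a * p * a⁻¹ * a = a * p := by group
      rw [h4] at h1
      have h2 : a * p * a⁻¹ = p := mul_left_cancel h1
      rw [← h2]; exact hp
  have hpg : IsPGroup 2 (Subgroup.zpowers a) :=
    IsPGroup.of_card (n := 1) (by rw [Nat.card_zpowers, ha, pow_one])
  have h1 := hpg.inf_normalizer_sylow P
  have h2 : a ∈ Subgroup.zpowers a ⊓ Subgroup.normalizer (P : Set G) :=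
    Subgroup.mem_inf.mpr ⟨Subgroup.mem_zpowers a, hnorm⟩
  rw [h1] at h2
  exact (Subgroup.mem_inf.mp h2).2

end finite

section fintype

variable [Fintype G] {P : Sylow 2 G}

/-- An involution of `P` is a product of two involutions in exactly two ways. -/
theorem Hyp.pairCount_of_mem (h : Hyp P) {z : G} (hz : z ∈ (P : Subgroup G))
    (hz2 : orderOf z = 2) : pairCount z = 2 := by
  have hK := h.klein
  have hz1 : z ≠ 1 := ne_one_of_orderOf hz2
  -- an element `a` of `P` different from `1` and `z`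
  obtain ⟨a, ha, ha1, haz⟩ : ∃ a ∈ (P : Subgroup G), a ≠ 1 ∧ a ≠ z := by
    obtain ⟨a', b', ha', hb', ha'1, hb'1, hab'⟩ := Helper55.klein_exists hK
    by_cases h1 : a' = z
    · exact ⟨b', hb', hb'1, fun h2 => hab' (h1.trans h2.symm)⟩
    · exact ⟨a', ha', ha'1, h1⟩
  have ha2 : orderOf a = 2 := Helper55.klein_orderOf hK ha ha1
  have haa : a * a = 1 := mul_self_of_orderOf ha2
  have hzz : z * z = 1 := mul_self_of_orderOf hz2
  have hcomm : a * z = z * a := Helper55.klein_comm hK ha hz
  have haz1 : a * z ≠ 1 := by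
    intro h1
    apply haz
    have h2 : a = z⁻¹ := eq_inv_of_mul_eq_one_left h1
    rw [h2, inv_of_orderOf hz2]
  have haz2 : orderOf (a * z) = 2 :=
    Helper55.klein_orderOf hK (mul_mem ha hz) haz1
  have hset : (invF G ×ˢ invF G).filter (fun p : G × G => p.1 * p.2 = z)
      = {(a, a * z), (a * z, a)} := by
    ext ⟨t₁, t₂⟩
    simp only [Finset.mem_filter, Finset.mem_product, mem_invF, Finset.mem_insert,
      Finset.mem_singleton, Prod.mk.injEq]
    constructor
    · rintro ⟨⟨h1, h2⟩, h3⟩
      have h11 : t₁ * t₁ = 1 := mul_self_of_orderOf h1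
      have h22 : t₂ * t₂ = 1 := mul_self_of_orderOf h2
      -- `t₁` commutes with `z`
      have h4 : t₁ * t₂ * (t₁ * t₂) = 1 := by rw [h3]; exact hzz
      have h5 : t₂ * t₁ = t₁ * t₂ := by
        have h6 : t₂ * t₁ = t₁ * (t₁ * t₂ * (t₁ * t₂)) * t₂ := by
          calc t₂ * t₁ = (t₁ * t₁) * (t₂ * t₁) * (t₂ * t₂) := by rw [h11, h22, one_mul, mul_one]
            _ = t₁ * (t₁ * t₂ * (t₁ * t₂)) * t₂ := by group
        rw [h6, h4, mul_one]
      have h7 : t₁ * z = z * t₁ := by
        rw [← h3, ← mul_assoc, mul_assoc t₁ t₂ t₁, h5, ← mul_assoc]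
      have ht₁P : t₁ ∈ (P : Subgroup G) := h.mem_of_commute hz hz2 h1 h7
      have h8 : t₂ = t₁ * z := by
        rw [← h3, ← mul_assoc, h11, one_mul]
      rcases Helper55.klein_elems hK hz ha ht₁P hz1 ha1 (fun h9 => haz h9.symm) with
        h9 | h9 | h9 | h9
      · exact absurd h9 (ne_one_of_orderOf h1)
      · exfalso
        rw [h9, hzz] at h8
        exact ne_one_of_orderOf h2 h8
      · left
        exact ⟨h9, by rw [h8, h9]⟩
      · right
        refine ⟨by rw [h9, hcomm], ?_⟩
        rw [h8, h9, mul_assoc, hcomm, ← mul_assoc, hzz, one_mul]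
    · rintro (⟨rfl, rfl⟩ | ⟨rfl, rfl⟩)
      · exact ⟨⟨ha2, haz2⟩, by rw [← mul_assoc, haa, one_mul]⟩
      · exact ⟨⟨haz2, ha2⟩, by rw [hcomm, mul_assoc, haa, mul_one]⟩
  rw [pairCount, hset, Finset.card_pair]
  intro h1
  have h2 : a = a * z := congrArg Prod.fst h1
  exact hz1 (by
    have h3 : a * 1 = a * z := by rw [mul_one]; exact h2
    exact (mul_left_cancel h3).symm)

/-- Every involution is a product of two involutions in exactly two ways. -/
theorem Hyp.pairCount_of_invol (h : Hyp P) {z : G} (hz2 : orderOf z = 2) : pairCount z = 2 := by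
  have : Fact (Nat.Prime 2) := ⟨Nat.prime_two⟩
  obtain ⟨g, hg⟩ := Helper55.exists_conj_mem_sylow_of_orderOf P z hz2
  rw [← pairCount_conj z g]
  exact h.pairCount_of_mem hg (by rw [orderOf_conj_eq']; exact hz2)

/-- An element `z * y` with `z` an involution and `y ≠ 1` of odd order commuting with `z` is not
a product of two involutions. -/
theorem Hyp.pairCount_eq_zero (h : Hyp P) {z y : G} (hz2 : orderOf z = 2) (hzy : Commute z y)
    (hy : ¬ 2 ∣ orderOf y) (hy1 : y ≠ 1) : pairCount (z * y) = 0 := by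
  rw [pairCount, Finset.card_eq_zero, Finset.filter_eq_empty_iff]
  rintro ⟨t₁, t₂⟩ hp h3
  simp only [Finset.mem_product, mem_invF] at hp
  obtain ⟨h1, h2⟩ := hp
  simp only at h3
  have h11 : t₁ * t₁ = 1 := mul_self_of_orderOf h1
  have h22 : t₂ * t₂ = 1 := mul_self_of_orderOf h2
  have hzz : z * z = 1 := mul_self_of_orderOf hz2
  obtain ⟨k, hk⟩ : Odd (orderOf y) := Nat.not_even_iff_odd.mp (fun he => hy he.two_dvd)
  -- `(z y)^m = z` with `m = orderOf y`
  have hpow : (z * y) ^ orderOf y = z := by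
    rw [hzy.mul_pow, pow_orderOf_eq_one, mul_one, hk, pow_succ, pow_mul, pow_two, hzz, one_pow,
      one_mul]
  -- `t₁` and `t₂` invert `z * y`
  have hi1 : t₁ * (z * y) * t₁⁻¹ = (z * y)⁻¹ := by
    rw [← h3, inv_of_orderOf h1, mul_inv_rev, inv_of_orderOf h1, inv_of_orderOf h2, ← mul_assoc,
      h11, one_mul]
  have hi2 : t₂ * (z * y) * t₂⁻¹ = (z * y)⁻¹ := by
    rw [← h3, inv_of_orderOf h2, mul_inv_rev, inv_of_orderOf h1, inv_of_orderOf h2, mul_assoc,
      mul_assoc, h22, mul_one]
  have hc : ∀ t : G, t * (z * y) * t⁻¹ = (z * y)⁻¹ → t * z = z * t := by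
    intro t ht
    have h4 : t * z * t⁻¹ = z := by
      calc t * z * t⁻¹ = t * (z * y) ^ orderOf y * t⁻¹ := by rw [hpow]
        _ = (t * (z * y) * t⁻¹) ^ orderOf y := (conj_pow).symm
        _ = ((z * y) ^ orderOf y)⁻¹ := by rw [ht, inv_pow]
        _ = z := by rw [hpow, inv_of_orderOf hz2]
    calc t * z = t * z * t⁻¹ * t := by group
      _ = z * t := by rw [h4]
  have h5 : t₁ * t₂ = t₂ * t₁ := h.comm z t₁ t₂ hz2 h1 h2 (hc t₁ hi1) (hc t₂ hi2)
  have h6 : (z * y) * (z * y) = 1 := by
    rw [← h3, mul_assoc, ← mul_assoc t₂, ← h5, mul_assoc, h22, mul_one, h11]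
  have h7 : y * y = 1 := by
    have h8 : (z * y) * (z * y) = (z * z) * (y * y) := by
      rw [mul_assoc, ← mul_assoc y, ← hzy.eq, mul_assoc, ← mul_assoc]
    rw [h8, hzz, one_mul] at h6
    exact h6
  have h9 : orderOf y ∣ 2 := orderOf_dvd_of_pow_eq_one (by rw [pow_two]; exact h7)
  have h10 : orderOf y = 1 := by
    rcases (Nat.dvd_prime Nat.prime_two).mp h9 with h | h
    · exact h
    · exact absurd (h ▸ dvd_rfl : 2 ∣ orderOf y) hy
  exact hy1 (orderOf_eq_one_iff.mp h10)

/-- `thetaF` vanishes on the elements whose 2-part is an involution. -/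
theorem Hyp.thetaF_eq_zero (h : Hyp P) {u z : G} (hu : IsPPart 2 u z) (hz2 : orderOf z = 2) :
    (thetaF u : ℂ) = 0 := by
  obtain ⟨y, rfl, hzy, -, hy⟩ := hu
  by_cases hy1 : y = 1
  · rw [hy1, mul_one, thetaF, if_pos hz2, h.pairCount_of_invol hz2]
    norm_num
  · have h1 : orderOf (z * y) ≠ 2 := by
      intro h2
      have h3 := mul_self_of_orderOf h2
      have hzz : z * z = 1 := mul_self_of_orderOf hz2
      have h8 : (z * y) * (z * y) = (z * z) * (y * y) := by
        rw [mul_assoc, ← mul_assoc y, ← hzy.eq, mul_assoc, ← mul_assoc]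
      rw [h8, hzz, one_mul] at h3
      have h9 : orderOf y ∣ 2 := orderOf_dvd_of_pow_eq_one (by rw [pow_two]; exact h3)
      rcases (Nat.dvd_prime Nat.prime_two).mp h9 with h | h
      · exact hy1 (orderOf_eq_one_iff.mp h)
      · exact hy (h ▸ dvd_rfl)
    rw [thetaF, if_neg h1, h.pairCount_eq_zero hz2 hzy hy hy1]
    norm_num

/-- The hypotheses pass to every Sylow 2-subgroup. -/
theorem Hyp.of_sylow (h : Hyp P) (Q : Sylow 2 G) : Hyp Q := by
  have : Fact (Nat.Prime 2) := ⟨Nat.prime_two⟩
  have hK := h.klein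
  refine ⟨⟨?_, ?_⟩, h.conj, h.comm⟩
  · rw [← Nat.card_congr (Sylow.equiv P Q).toEquiv]; exact IsKleinFour.card_four
  · rw [← Monoid.exponent_eq_of_mulEquiv (Sylow.equiv P Q)]; exact IsKleinFour.exponent_two

/-- An involution lies in a unique Sylow 2-subgroup. -/
theorem Hyp.sylow_unique (h : Hyp P) {Q₁ Q₂ : Sylow 2 G} {z : G} (hz2 : orderOf z = 2)
    (h1 : z ∈ (Q₁ : Subgroup G)) (h2 : z ∈ (Q₂ : Subgroup G)) : Q₁ = Q₂ := by
  have : Fact (Nat.Prime 2) := ⟨Nat.prime_two⟩
  have hQ₁ := h.of_sylow Q₁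
  have hQ₂ := h.of_sylow Q₂
  have hle : (Q₂ : Subgroup G) ≤ (Q₁ : Subgroup G) := by
    intro q hq
    by_cases hq1 : q = 1
    · rw [hq1]; exact one_mem _
    · exact hQ₁.mem_of_commute h1 hz2 (Helper55.klein_orderOf hQ₂.klein hq hq1)
        (Helper55.klein_comm hQ₂.klein hq h2)
  exact Sylow.ext (Q₂.is_maximal' Q₁.isPGroup' hle)

/-- A Sylow 2-subgroup contains exactly three involutions. -/
theorem Hyp.card_invol_mem (h : Hyp P) :
    ((invF G).filter (fun z => z ∈ (P : Subgroup G))).card = 3 := by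
  have hK := h.klein
  obtain ⟨a, b, ha, hb, ha1, hb1, hab⟩ := Helper55.klein_exists hK
  have hbb : b * b = 1 := Helper55.klein_sq hK hb
  have hab1 : a * b ≠ 1 := by
    intro h1
    apply hab
    have h2 : a = b⁻¹ := eq_inv_of_mul_eq_one_left h1
    rw [h2]; exact inv_eq_of_mul_eq_one_left hbb
  have hset : (invF G).filter (fun z => z ∈ (P : Subgroup G)) = {a, b, a * b} := by
    ext z
    simp only [Finset.mem_filter, mem_invF, Finset.mem_insert, Finset.mem_singleton]
    constructor
    · rintro ⟨h1, h2⟩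
      rcases Helper55.klein_elems hK ha hb h2 ha1 hb1 hab with h3 | h3 | h3 | h3
      · exact absurd h3 (ne_one_of_orderOf h1)
      · exact Or.inl h3
      · exact Or.inr (Or.inl h3)
      · exact Or.inr (Or.inr h3)
    · rintro (rfl | rfl | rfl)
      · exact ⟨Helper55.klein_orderOf hK ha ha1, ha⟩
      · exact ⟨Helper55.klein_orderOf hK hb hb1, hb⟩
      · exact ⟨Helper55.klein_orderOf hK (mul_mem ha hb) hab1, mul_mem ha hb⟩
  rw [hset]
  apply Finset.card_eq_three.mpr
  refine ⟨a, b, a * b, hab, ?_, ?_, rfl⟩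
  · intro h1
    apply hb1
    have h3 : a * 1 = a * b := by rw [mul_one]; exact h1
    exact (mul_left_cancel h3).symm
  · intro h1
    apply ha1
    have h3 : 1 * b = a * b := by rw [one_mul]; exact h1
    exact (mul_right_cancel h3).symm

/-- The number of involutions is three times the number of Sylow 2-subgroups. -/
theorem Hyp.card_invF (h : Hyp P) : (invF G).card = 3 * Nat.card (Sylow 2 G) := by
  have : Fact (Nat.Prime 2) := ⟨Nat.prime_two⟩
  have : Fintype (Sylow 2 G) := Fintype.ofFinite _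
  have hunion : invF G =
      (Finset.univ : Finset (Sylow 2 G)).biUnion
        (fun Q => (invF G).filter (fun z => z ∈ (Q : Subgroup G))) := by
    ext z
    simp only [Finset.mem_biUnion, Finset.mem_univ, true_and, Finset.mem_filter]
    constructor
    · intro hz
      have hpg : IsPGroup 2 (Subgroup.zpowers z) :=
        IsPGroup.of_card (n := 1) (by rw [Nat.card_zpowers, mem_invF.mp hz, pow_one])
      obtain ⟨Q, hQ⟩ := hpg.exists_le_sylow
      exact ⟨Q, hz, hQ (Subgroup.mem_zpowers z)⟩
    · rintro ⟨Q, hz, -⟩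
      exact hz
  rw [hunion, Finset.card_biUnion]
  · rw [Finset.sum_congr rfl (fun Q _ => (h.of_sylow Q).card_invol_mem), Finset.sum_const,
      Finset.card_univ, smul_eq_mul, mul_comm, Nat.card_eq_fintype_card]
  · intro Q₁ _ Q₂ _ hne
    show Disjoint ((invF G).filter (fun z => z ∈ (Q₁ : Subgroup G)))
      ((invF G).filter (fun z => z ∈ (Q₂ : Subgroup G)))
    rw [Finset.disjoint_left]
    intro z hz1 hz2
    simp only [Finset.mem_filter, mem_invF] at hz1 hz2
    exact hne (h.sylow_unique hz1.1 hz1.2 hz2.2)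

/-- The class of involutions has size three times the number of Sylow 2-subgroups. -/
theorem Hyp.index_centralizer (h : Hyp P) {t : G} (ht : orderOf t = 2) :
    (Subgroup.centralizer ({t} : Set G)).index = 3 * Nat.card (Sylow 2 G) := by
  rw [← h.card_invF, ← Helper81.card_classFinset]
  congr 1
  ext y
  rw [mem_invF, Helper81.mem_classFinset]
  constructor
  · intro hy
    obtain ⟨c, rfl⟩ := isConj_iff.mp hy
    rw [orderOf_conj_eq']; exact ht
  · intro hy; exact h.conj t y ht hy

end fintype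

/-- The arithmetic of the order formula: the number of Sylow 2-subgroups is at most five. -/
theorem arith_lt_six (n f₂ f₃ f₄ : ℕ) (ε : ℤ) (h2 : 0 < f₂) (h3 : 0 < f₃) (h4 : 0 < f₄)
    (hε : ε = 1 ∨ ε = -1) (d3 : (4 : ℤ) ∣ (f₃ : ℤ) - ε) (d4 : (4 : ℤ) ∣ (f₄ : ℤ) + 1)
    (hrel : 1 + (f₂ : ℤ) + ε * f₃ - f₄ = 0)
    (heq : ((3 * n : ℕ) : ℤ) * ((f₂ : ℤ) * f₃ * f₄ + f₃ * f₄ + ε * f₂ * f₄ - f₂ * f₃)
      = 8 * f₂ * f₃ * f₄) : n < 6 := by
  by_contra hn
  push Not at hn
  have hN : (6 : ℤ) ≤ (n : ℤ) := by exact_mod_cast hn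
  have ha : (0 : ℤ) < (f₂ : ℤ) := by exact_mod_cast h2
  have hb : (0 : ℤ) < (f₃ : ℤ) := by exact_mod_cast h3
  have hc : (0 : ℤ) < (f₄ : ℤ) := by exact_mod_cast h4
  push_cast at heq
  generalize (f₂ : ℤ) = a at *
  generalize (f₃ : ℤ) = b at *
  generalize (f₄ : ℤ) = c at *
  generalize (n : ℤ) = N at *
  rcases hε with rfl | rfl
  · -- `ε = 1`
    have hc' : c = 1 + a + b := by linarith
    subst hc'
    have habc : 0 < a * b * (1 + a + b) := mul_pos (mul_pos ha hb) hc
    have hY : 0 < b * (1 + a + b) + 1 * a * (1 + a + b) - a * b := by nlinarith [mul_pos ha hb]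
    have hX : 0 < a * b * (1 + a + b) + b * (1 + a + b) + 1 * a * (1 + a + b) - a * b := by
      linarith
    have h5 : 18 * (a * b * (1 + a + b) + b * (1 + a + b) + 1 * a * (1 + a + b) - a * b)
        ≤ 3 * N * (a * b * (1 + a + b) + b * (1 + a + b) + 1 * a * (1 + a + b) - a * b) := by
      nlinarith
    linarith
  · -- `ε = -1`
    have ha' : a = b + c - 1 := by linarith
    subst ha'
    have hb3 : 3 ≤ b := by
      obtain ⟨k, hk⟩ := d3
      omega
    have hc3 : 3 ≤ c := by
      obtain ⟨k, hk⟩ := d4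
      omega
    have hfac : (b + c - 1) * b * c + b * c + -1 * (b + c - 1) * c - (b + c - 1) * b
        = (b + c) * ((b - 1) * (c - 1)) := by ring
    rw [hfac] at heq
    have hU : 4 * (b * c) ≤ 9 * ((b - 1) * (c - 1)) := by
      nlinarith [mul_nonneg (sub_nonneg.mpr hb3) (sub_nonneg.mpr hc3)]
    have hS : 0 < b + c := by linarith
    have hUpos : 0 < (b - 1) * (c - 1) := by nlinarith
    have hbc : 0 < b * c := mul_pos hb hc
    have h5 : 18 * ((b + c) * ((b - 1) * (c - 1))) ≤ 3 * N * ((b + c) * ((b - 1) * (c - 1))) := by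
      have : 0 < (b + c) * ((b - 1) * (c - 1)) := mul_pos hS hUpos
      nlinarith
    have h6 : 8 * (b * c) * (b + c) ≤ 18 * ((b + c) * ((b - 1) * (c - 1))) := by
      nlinarith
    have h7 : 8 * (b + c - 1) * b * c < 8 * (b * c) * (b + c) := by nlinarith
    linarith

section final

variable [Finite G] {P : Sylow 2 G}

/-- Under the hypotheses, the number of Sylow 2-subgroups is 1, 3 or 5. -/
theorem Hyp.card_sylow (h : Hyp P) :
    Nat.card (Sylow 2 G) = 1 ∨ Nat.card (Sylow 2 G) = 3 ∨ Nat.card (Sylow 2 G) = 5 := by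
  letI : Fintype G := Fintype.ofFinite G
  have : Fact (Nat.Prime 2) := ⟨Nat.prime_two⟩
  obtain ⟨t, -, htP, -, ht1, -, -⟩ := Helper55.klein_exists h.klein
  have ht : orderOf t = 2 := Helper55.klein_orderOf h.klein htP ht1
  have hvan : ∀ u z : G, IsPPart 2 u z → IsConj t z →
      @thetaF G _ (Fintype.ofFinite G) u = 0 := by
    intro u z hu hc
    apply h.thetaF_eq_zero hu
    obtain ⟨c, rfl⟩ := isConj_iff.mp hc
    rw [orderOf_conj_eq']; exact ht
  obtain ⟨f₂, f₃, f₄, ε, h2, h3, h4, hε, -, d3, d4, hrel, heq⟩ :=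
    order_formula P h.klein h.conj t ht hvan
  rw [h.index_centralizer ht] at heq
  have hlt := arith_lt_six _ f₂ f₃ f₄ ε h2 h3 h4 hε d3 d4 hrel heq
  have hmod : Nat.card (Sylow 2 G) ≡ 1 [MOD 2] := card_sylow_modEq_one 2 G
  have hmod' : Nat.card (Sylow 2 G) % 2 = 1 := hmod
  omega

/-- A simple group satisfying the hypotheses is isomorphic to `A₅`. -/
theorem Hyp.simple_iso (h : Hyp P) [IsSimpleGroup G] :
    Nonempty (G ≃* alternatingGroup (Fin 5)) := by
  letI : Fintype G := Fintype.ofFinite G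
  have : Fact (Nat.Prime 2) := ⟨Nat.prime_two⟩
  have hK := h.klein
  obtain ⟨t, -, htP, -, ht1, -, -⟩ := Helper55.klein_exists hK
  have ht : orderOf t = 2 := Helper55.klein_orderOf hK htP ht1
  have hcardP : Nat.card (P : Subgroup G) = 4 := IsKleinFour.card_four
  have h4G : 4 ∣ Nat.card G := hcardP ▸ Subgroup.card_subgroup_dvd_card (P : Subgroup G)
  -- `P` is not normal
  have hne : Subgroup.normalizer ((P : Subgroup G) : Set G) ≠ ⊤ := by
    intro htop
    have hnorm : (P : Subgroup G).Normal := Subgroup.normalizer_eq_top_iff.mp htop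
    rcases hnorm.eq_bot_or_eq_top with hb | hb
    · rw [hb, Subgroup.card_bot] at hcardP
      norm_num at hcardP
    · -- `G = P` is a Klein four-group, which is not simple
      have hcomm : ∀ a b : G, a * b = b * a := fun a b =>
        Helper55.klein_comm hK (hb ▸ Subgroup.mem_top a) (hb ▸ Subgroup.mem_top b)
      have hZ : (Subgroup.zpowers t).Normal :=
        ⟨fun n hn g => by rw [hcomm g n, mul_inv_cancel_right]; exact hn⟩
      rcases hZ.eq_bot_or_eq_top with hz | hz
      · exact ht1 (Subgroup.zpowers_eq_bot.mp hz)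
      · have h1 : Nat.card (Subgroup.zpowers t) = 2 := by rw [Nat.card_zpowers, ht]
        rw [hz, Subgroup.card_top] at h1
        rw [h1] at h4G
        norm_num at h4G
  have hdvd := Helper41.card_dvd_factorial_index_of_simple _ hne
  have hcardn : Nat.card (Sylow 2 G)
      = (Subgroup.normalizer ((P : Subgroup G) : Set G)).index :=
    Sylow.card_eq_index_normalizer P
  rw [← hcardn] at hdvd
  have hidx := h.index_centralizer ht
  have h15 : (Subgroup.centralizer ({t} : Set G)).index ∣ Nat.card G := Subgroup.index_dvd_card _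
  have hmul : Nat.card (P : Subgroup G) = 2 ^ (Nat.card G).factorization 2 :=
    Sylow.card_eq_multiplicity P
  have h8 : ¬ 8 ∣ Nat.card G := by
    intro h8
    have h1 : 3 ≤ (Nat.card G).factorization 2 :=
      (Nat.Prime.pow_dvd_iff_le_factorization Nat.prime_two Nat.card_pos.ne').mp
        (by have h23 : (2 : ℕ) ^ 3 = 8 := by norm_num
            rw [h23]; exact h8)
    have h2 : 2 ^ 3 ≤ 2 ^ (Nat.card G).factorization 2 := Nat.pow_le_pow_right (by norm_num) h1
    rw [← hmul, hcardP] at h2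
    norm_num at h2
  rcases h.card_sylow with hn | hn | hn
  · exfalso
    rw [hcardn, Subgroup.index_eq_one] at hn
    exact hne hn
  · exfalso
    rw [hn] at hdvd
    have h6 : Nat.card G ∣ 6 := by simpa [Nat.factorial] using hdvd
    have := Nat.dvd_trans h4G h6
    norm_num at this
  · rw [hn] at hdvd hidx
    rw [hidx] at h15
    have h120 : Nat.card G ∣ 120 := by simpa [Nat.factorial] using hdvd
    have h60 : 60 ∣ Nat.card G := by
      have : Nat.Coprime 4 15 := by norm_num
      have h1 := this.mul_dvd_of_dvd_of_dvd h4G (by simpa using h15)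
      simpa using h1
    obtain ⟨m, hm⟩ := h60
    have hm2 : m ∣ 2 := by
      rw [hm] at h120
      exact Nat.dvd_of_mul_dvd_mul_left (by norm_num : 0 < 60) (by simpa using h120)
    rcases (Nat.dvd_prime Nat.prime_two).mp hm2 with h1 | h1
    · exact Helper41.simple_order_sixty (by rw [hm, h1])
    · exfalso
      apply h8
      rw [hm, h1]
      norm_num

end final

end Cfsg.Agent.Helper21.KF
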