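/-
Helper library of seat helper21: a simple group with an involution whose centralizer has a
normal Klein four Sylow 2-subgroup satisfies the hypotheses `KF.Hyp` (Klein four Sylow
2-subgroups, one class of involutions, 2-closed involution centralizers), hence is `A₅`.
-/
import Mathlib
import Cfsg.Agent.Helper21.KFGroup
import Cfsg.Agent.Helper21.StrEmb
import Cfsg.Agent.S0203

set_option autoImplicit false

namespace Cfsg.Agent.Helper21.KF

open Cfsg
open scoped Classical Pointwise

universe u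

variable {G : Type u} [Group G] [Finite G]

omit [Finite G] in
/-- In a group with a normal Klein four Sylow 2-subgroup `S₀` of `C(x)`, every 2-element of
`C(x)` lies in `S₀`. -/
theorem two_mem_of_normal_sylow (x : G) (S₀ : Subgroup G)
    (hle : S₀ ≤ Subgroup.centralizer ({x} : Set G)) (hK : IsKleinFour ↥S₀)
    (hodd : ¬ 2 ∣ S₀.relIndex (Subgroup.centralizer ({x} : Set G)))
    (hn : (S₀.subgroupOf (Subgroup.centralizer ({x} : Set G))).Normal)
    {c : G} (hcx : c * x = x * c) (hc : ∃ k : ℕ, c ^ 2 ^ k = 1) : c ∈ S₀ := by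
  have : Fact (Nat.Prime 2) := ⟨Nat.prime_two⟩
  set C := Subgroup.centralizer ({x} : Set G) with hC
  have hcard : Nat.card (S₀.subgroupOf C) = 2 ^ 2 := by
    rw [Nat.card_congr (Subgroup.subgroupOfEquivOfLe hle).toEquiv]
    exact IsKleinFour.card_four
  have hS'p : IsPGroup 2 (S₀.subgroupOf C) := IsPGroup.of_card hcard
  have hS'idx : ¬ 2 ∣ (S₀.subgroupOf C).index := hodd
  have hcC : c ∈ C := by
    rw [hC, Subgroup.mem_centralizer_iff]
    intro h hh
    rw [Set.mem_singleton_iff] at hh
    rw [hh]; exact hcx.symm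
  obtain ⟨k, hk⟩ := hc
  have hpg : IsPGroup 2 (Subgroup.zpowers (⟨c, hcC⟩ : C)) := by
    have h1 : orderOf (⟨c, hcC⟩ : C) ∣ 2 ^ k := by
      apply orderOf_dvd_of_pow_eq_one
      apply Subtype.ext
      simpa using hk
    obtain ⟨j, -, hj⟩ := (Nat.dvd_prime_pow Nat.prime_two).mp h1
    exact IsPGroup.of_card (n := j) (by rw [Nat.card_zpowers, hj])
  obtain ⟨Q, hQ⟩ := hpg.exists_le_sylow
  have h1 : S₀.subgroupOf C ≤ (Q : Subgroup C) := hS'p.le_sylow_of_normal Q
  have h2 : (Q : Subgroup C) = ((hS'p.toSylow hS'idx : Sylow 2 C) : Subgroup C) :=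
    (hS'p.toSylow hS'idx).is_maximal' Q.isPGroup' (by rw [IsPGroup.toSylow_coe]; exact h1)
  rw [IsPGroup.toSylow_coe] at h2
  have h3 : (⟨c, hcC⟩ : C) ∈ (Q : Subgroup C) := hQ (Subgroup.mem_zpowers _)
  rw [h2, Subgroup.mem_subgroupOf] at h3
  exact h3

omit [Finite G] in
/-- A group which is equal to a Klein four Sylow subgroup is not simple. -/
theorem not_simple_of_klein_top [IsSimpleGroup G] (P : Subgroup G) (hK : IsKleinFour ↥P)
    (htop : P = ⊤) : False := by
  have hcomm : ∀ a b : G, a * b = b * a := fun a b =>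
    Helper55.klein_comm hK (htop ▸ Subgroup.mem_top a) (htop ▸ Subgroup.mem_top b)
  obtain ⟨t, -, htP, -, ht1, -, -⟩ := Helper55.klein_exists hK
  have ht : orderOf t = 2 := Helper55.klein_orderOf hK htP ht1
  have hcardP : Nat.card P = 4 := IsKleinFour.card_four
  have hZ : (Subgroup.zpowers t).Normal :=
    ⟨fun n hn g => by rw [hcomm g n, mul_inv_cancel_right]; exact hn⟩
  rcases hZ.eq_bot_or_eq_top with hz | hz
  · exact ht1 (Subgroup.zpowers_eq_bot.mp hz)
  · have h1 : Nat.card (Subgroup.zpowers t) = 2 := by rw [Nat.card_zpowers, ht]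
    rw [hz, ← htop, hcardP] at h1
    norm_num at h1

/-- **Reduction.**  A finite simple group with an involution `x` such that `C(x)` has a normal
Klein four Sylow 2-subgroup satisfies `KF.Hyp`. -/
theorem exists_hyp [IsSimpleGroup G] (x : G) (hx : orderOf x = 2) (S₀ : Subgroup G)
    (hle : S₀ ≤ Subgroup.centralizer ({x} : Set G)) (hK : IsKleinFour ↥S₀)
    (hodd : ¬ 2 ∣ S₀.relIndex (Subgroup.centralizer ({x} : Set G)))
    (hn : (S₀.subgroupOf (Subgroup.centralizer ({x} : Set G))).Normal) :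
    ∃ P : Sylow 2 G, Hyp P := by
  have : Fact (Nat.Prime 2) := ⟨Nat.prime_two⟩
  have htwo : ∀ {c : G}, c * x = x * c → (∃ k : ℕ, c ^ 2 ^ k = 1) → c ∈ S₀ :=
    fun hcx hc => two_mem_of_normal_sylow x S₀ hle hK hodd hn hcx hc
  have hinv : ∀ {c : G}, c * x = x * c → orderOf c = 2 → c ∈ S₀ := fun hcx hc =>
    htwo hcx ⟨1, by rw [pow_one, ← hc, pow_orderOf_eq_one]⟩
  have hx1 : x ≠ 1 := ne_one_of_orderOf hx
  have hxx : x * x = 1 := mul_self_of_orderOf hx
  have hxS : x ∈ S₀ := hinv rfl hx
  have hS₀p : IsPGroup 2 S₀ := IsPGroup.of_card (n := 2) IsKleinFour.card_four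
  obtain ⟨P, hP⟩ := hS₀p.exists_le_sylow
  -- `S₀` is a Sylow 2-subgroup of `G`
  have hPS : (P : Subgroup G) ≤ S₀ := by
    by_contra hcon
    -- an element `s` of `N_P(S₀) \ S₀`
    obtain ⟨s, hsP, hsS, hsn⟩ : ∃ s ∈ (P : Subgroup G), s ∉ S₀ ∧ ∀ q ∈ S₀, s * q * s⁻¹ ∈ S₀ := by
      have hnil : Group.IsNilpotent (P : Subgroup G) := P.isPGroup'.isNilpotent
      have hlt : S₀.subgroupOf (P : Subgroup G) < ⊤ := by
        rw [lt_top_iff_ne_top]
        intro htop
        apply hcon
        intro p hp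
        have : (⟨p, hp⟩ : (P : Subgroup G)) ∈ S₀.subgroupOf (P : Subgroup G) := by
          rw [htop]; exact Subgroup.mem_top _
        exact Subgroup.mem_subgroupOf.mp this
      have hlt2 := Group.normalizerCondition_of_isNilpotent (G := (P : Subgroup G)) _ hlt
      obtain ⟨s', hs'n, hs'S⟩ := SetLike.exists_of_lt hlt2
      refine ⟨(s' : G), s'.2, fun h => hs'S (Subgroup.mem_subgroupOf.mpr h), ?_⟩
      intro q hq
      have h1 : (⟨q, hP hq⟩ : (P : Subgroup G)) ∈ S₀.subgroupOf (P : Subgroup G) :=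
        Subgroup.mem_subgroupOf.mpr hq
      have h2 := (Subgroup.mem_normalizer_iff.mp hs'n _).mp h1
      exact Subgroup.mem_subgroupOf.mp h2
    have hP2 : ∀ p ∈ (P : Subgroup G), ∃ k : ℕ, p ^ 2 ^ k = 1 := by
      intro p hp
      obtain ⟨k, hk⟩ := P.isPGroup' ⟨p, hp⟩
      exact ⟨k, by simpa using congrArg Subtype.val hk⟩
    have hsx : s * x ≠ x * s := fun h => hsS (htwo h (hP2 s hsP))
    -- a central involution `z` of `P`
    have hnt : Nontrivial (P : Subgroup G) :=
      ⟨⟨⟨x, hP hxS⟩, 1, fun h => hx1 (congrArg Subtype.val h)⟩⟩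
    have hcn : Nontrivial (Subgroup.center (P : Subgroup G)) := P.isPGroup'.center_nontrivial
    obtain ⟨z', hz'⟩ := exists_ne (1 : Subgroup.center (P : Subgroup G))
    obtain ⟨z, hzP, hzc, hz1⟩ : ∃ z ∈ (P : Subgroup G), (∀ p ∈ (P : Subgroup G), p * z = z * p)
        ∧ z ≠ 1 := by
      refine ⟨((z' : (P : Subgroup G)) : G), (z' : (P : Subgroup G)).2, ?_, ?_⟩
      · intro p hp
        have h1 := Subgroup.mem_center_iff.mp z'.2 ⟨p, hp⟩
        exact congrArg Subtype.val h1
      · intro h
        apply hz'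
        apply Subtype.ext
        apply Subtype.ext
        exact h
    have hzS : z ∈ S₀ := htwo (hzc x (hP hxS)).symm (hP2 z hzP)
    have hz2 : orderOf z = 2 := Helper55.klein_orderOf hK hzS hz1
    have hzz : z * z = 1 := mul_self_of_orderOf hz2
    have hsz : s * z = z * s := hzc s hsP
    have hxz : x ≠ z := by
      intro h
      apply hsx
      rw [h]; exact hsz
    -- `s x s⁻¹ = x z`
    have hsxs : s * x * s⁻¹ = x * z := by
      rcases Helper55.klein_elems hK hxS hzS (hsn x hxS) hx1 hz1 hxz with h | h | h | h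
      · exfalso
        apply hx1
        have h1 : x = s⁻¹ * (s * x * s⁻¹) * s := by group
        rw [h1, h]; group
      · exfalso
        apply hsx
        calc s * x = s * x * s⁻¹ * s := by group
          _ = x * s := by rw [h]
      · exfalso
        apply hxz
        have h1 : x = s⁻¹ * (s * x * s⁻¹) * s := by group
        rw [h1, h, mul_assoc, ← hsz, ← mul_assoc, inv_mul_cancel, one_mul]
      · exact h
    -- `x` and `z` are not conjugate
    have hnc : ∀ g : G, g * x * g⁻¹ ≠ z := by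
      intro g hg
      have hmem : ∀ p ∈ (P : Subgroup G), g⁻¹ * p * g ∈ S₀ := by
        intro p hp
        apply htwo
        · have h1 : x = g⁻¹ * z * g := by rw [← hg]; group
          calc g⁻¹ * p * g * x = g⁻¹ * p * g * (g⁻¹ * z * g) := by rw [← h1]
            _ = g⁻¹ * (p * z) * g := by group
            _ = g⁻¹ * (z * p) * g := by rw [hzc p hp]
            _ = (g⁻¹ * z * g) * (g⁻¹ * p * g) := by group
            _ = x * (g⁻¹ * p * g) := by rw [← h1]
        · obtain ⟨k, hk⟩ := hP2 p hp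
          refine ⟨k, ?_⟩
          have h2 : g⁻¹ * p * g = g⁻¹ * p * g⁻¹⁻¹ := by rw [inv_inv]
          rw [h2, conj_pow, hk]; group
      have hcardle : Nat.card (P : Subgroup G) ≤ Nat.card S₀ := by
        apply Nat.card_le_card_of_injective
          (fun p : (P : Subgroup G) => (⟨g⁻¹ * p.1 * g, hmem p.1 p.2⟩ : S₀))
        intro p q hpq
        have h1 : g⁻¹ * p.1 * g = g⁻¹ * q.1 * g := congrArg Subtype.val hpq
        apply Subtype.ext
        have h2 : p.1 = g * (g⁻¹ * p.1 * g) * g⁻¹ := by group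
        rw [h2, h1]; group
      have heq : S₀ = (P : Subgroup G) := Subgroup.eq_of_le_of_card_ge hP hcardle
      exact hcon heq.ge
    -- conjugates of `z` in `S₀` are equal to `z`
    have hstar : ∀ h : G, h * z * h⁻¹ ∈ S₀ → h * z * h⁻¹ = z := by
      intro h hmem
      rcases Helper55.klein_elems hK hxS hzS hmem hx1 hz1 hxz with h1 | h1 | h1 | h1
      · exfalso
        apply hz1
        have h2 : z = h⁻¹ * (h * z * h⁻¹) * h := by group
        rw [h2, h1]; group
      · exfalso
        apply hnc h⁻¹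
        rw [← h1]; group
      · exact h1
      · exfalso
        apply hnc (h⁻¹ * s)
        have h2 : h⁻¹ * s * x * (h⁻¹ * s)⁻¹ = h⁻¹ * (s * x * s⁻¹) * h := by group
        rw [h2, hsxs, ← h1]; group
    have hss : ∀ h : G, (h * z * h⁻¹) * x = x * (h * z * h⁻¹) → h * z * h⁻¹ = z := by
      intro h hc
      exact hstar h (hinv hc (by rw [orderOf_conj_eq']; exact hz2))
    -- every conjugate of `z` commutes with `z`
    have hcz : ∀ g : G, (g * z * g⁻¹) * z = z * (g * z * g⁻¹) := by
      intro g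
      have hw2 : orderOf (g * z * g⁻¹) = 2 := by rw [orderOf_conj_eq']; exact hz2
      rcases inv_pair hx hw2 with ⟨v, -, hv⟩ | ⟨i, hi2, hix, hiw⟩
      · exfalso
        apply hnc (g⁻¹ * v)
        have h2 : g⁻¹ * v * x * (g⁻¹ * v)⁻¹ = g⁻¹ * (v * x * v⁻¹) * g := by group
        rw [h2, hv]; group
      · have hiS : i ∈ S₀ := hinv hix hi2
        rcases Helper55.klein_elems hK hxS hzS hiS hx1 hz1 hxz with h1 | h1 | h1 | h1
        · exact absurd h1 (ne_one_of_orderOf hi2)
        · rw [h1] at hiw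
          rw [hss g hiw.symm]
        · rw [h1] at hiw
          exact hiw.symm
        · -- `i = x z = s x s⁻¹`
          rw [h1, ← hsxs] at hiw
          have h3 : (s⁻¹ * g) * z * (s⁻¹ * g)⁻¹ = s⁻¹ * (g * z * g⁻¹) * s := by group
          have h4 : (s⁻¹ * g) * z * (s⁻¹ * g)⁻¹ = z := by
            apply hss
            rw [h3]
            calc s⁻¹ * (g * z * g⁻¹) * s * x = s⁻¹ * ((g * z * g⁻¹) * (s * x * s⁻¹)) * s := by
                  group
              _ = s⁻¹ * ((s * x * s⁻¹) * (g * z * g⁻¹)) * s := by rw [hiw]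
              _ = x * (s⁻¹ * (g * z * g⁻¹) * s) := by group
          rw [h3] at h4
          have h5 : g * z * g⁻¹ = s * z * s⁻¹ := by
            calc g * z * g⁻¹ = s * (s⁻¹ * (g * z * g⁻¹) * s) * s⁻¹ := by group
              _ = s * z * s⁻¹ := by rw [h4]
          have h6 : s * z * s⁻¹ = z := by rw [hsz, mul_inv_cancel_right]
          rw [h5, h6]
    -- the normal closure of `z` is abelian, so `G` is abelian: contradiction
    have hcomm : ∀ a ∈ Group.conjugatesOfSet ({z} : Set G),
        ∀ b ∈ Group.conjugatesOfSet ({z} : Set G), a * b = b * a := by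
      intro a ha b hb
      rw [Group.mem_conjugatesOfSet_iff] at ha hb
      obtain ⟨z₁, hz₁, ha⟩ := ha
      obtain ⟨z₂, hz₂, hb⟩ := hb
      rw [Set.mem_singleton_iff] at hz₁ hz₂
      rw [hz₁] at ha
      rw [hz₂] at hb
      obtain ⟨g, rfl⟩ := isConj_iff.mp ha
      obtain ⟨h, rfl⟩ := isConj_iff.mp hb
      have h1 := hcz (h⁻¹ * g)
      calc g * z * g⁻¹ * (h * z * h⁻¹)
          = h * ((h⁻¹ * g) * z * (h⁻¹ * g)⁻¹ * z) * h⁻¹ := by group
        _ = h * (z * ((h⁻¹ * g) * z * (h⁻¹ * g)⁻¹)) * h⁻¹ := by rw [h1]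
        _ = h * z * h⁻¹ * (g * z * g⁻¹) := by group
    have hcl : Subgroup.closure (Group.conjugatesOfSet ({z} : Set G)) = ⊤ := by
      have hN : (Subgroup.normalClosure ({z} : Set G)).Normal := Subgroup.normalClosure_normal
      rcases hN.eq_bot_or_eq_top with hb | ht
      · exfalso
        have h1 : z ∈ Subgroup.normalClosure ({z} : Set G) := Subgroup.subset_normalClosure rfl
        rw [hb, Subgroup.mem_bot] at h1
        exact hz1 h1
      · exact ht
    have h1 := (isMulCommutative_iff.mp (Subgroup.isMulCommutative_closure hcomm))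
      ⟨s, hcl ▸ Subgroup.mem_top s⟩ ⟨x, hcl ▸ Subgroup.mem_top x⟩
    exact hsx (congrArg Subtype.val h1)
  have hPeq : (P : Subgroup G) = S₀ := le_antisymm hPS hP
  have hKP : IsKleinFour (P : Subgroup G) := by rw [hPeq]; exact hK
  -- all involutions are conjugate
  have hone : ∀ s t : G, orderOf s = 2 → orderOf t = 2 → IsConj s t := by
    rcases Helper55.klein_dichotomy P hKP with hnf | hac
    · exfalso
      have h3 := Helper55.klein_card_classes_of_no_fusion P hKP hnf
      obtain ⟨N, hN, hc⟩ := (Cfsg.Agent.S0203.result P hKP).mp h3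
      rcases hN.eq_bot_or_eq_top with hb | ht
      · rw [hb, Subgroup.isComplement'_bot_left] at hc
        exact not_simple_of_klein_top (P : Subgroup G) hKP hc
      · rw [ht, Subgroup.isComplement'_top_left] at hc
        have hcardP : Nat.card (P : Subgroup G) = 4 := IsKleinFour.card_four
        rw [hc, Subgroup.card_bot] at hcardP
        norm_num at hcardP
    · intro s t hs ht
      obtain ⟨g, hg⟩ := Helper55.exists_conj_mem_sylow_of_orderOf P s hs
      obtain ⟨h, hh⟩ := Helper55.exists_conj_mem_sylow_of_orderOf P t ht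
      have hg1 : g * s * g⁻¹ ≠ 1 := by
        apply ne_one_of_orderOf; rw [orderOf_conj_eq']; exact hs
      have hh1 : h * t * h⁻¹ ≠ 1 := by
        apply ne_one_of_orderOf; rw [orderOf_conj_eq']; exact ht
      have h1 : IsConj (g * s * g⁻¹) (h * t * h⁻¹) := hac _ hg _ hh hg1 hh1
      have h2 : IsConj s (g * s * g⁻¹) := isConj_iff.mpr ⟨g, rfl⟩
      have h3 : IsConj t (h * t * h⁻¹) := isConj_iff.mpr ⟨h, rfl⟩
      exact (h2.trans h1).trans h3.symm
  -- involutions commuting with a given involution commute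
  have hcomm : ∀ z a b : G, orderOf z = 2 → orderOf a = 2 → orderOf b = 2 → a * z = z * a →
      b * z = z * b → a * b = b * a := by
    intro z a b hz ha hb haz hbz
    obtain ⟨g, hg⟩ := isConj_iff.mp (hone x z hx hz)
    have hx' : x = g⁻¹ * z * g := by rw [← hg]; group
    have key : ∀ c : G, orderOf c = 2 → c * z = z * c → g⁻¹ * c * g ∈ S₀ := by
      intro c hc hcz
      apply hinv
      · calc g⁻¹ * c * g * x = g⁻¹ * c * g * (g⁻¹ * z * g) := by rw [← hx']
          _ = g⁻¹ * (c * z) * g := by group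
          _ = g⁻¹ * (z * c) * g := by rw [hcz]
          _ = (g⁻¹ * z * g) * (g⁻¹ * c * g) := by group
          _ = x * (g⁻¹ * c * g) := by rw [← hx']
      · have h2 : g⁻¹ * c * g = g⁻¹ * c * g⁻¹⁻¹ := by rw [inv_inv]
        rw [h2, orderOf_conj_eq']; exact hc
    have h1 := Helper55.klein_comm hK (key a ha haz) (key b hb hbz)
    calc a * b = g * ((g⁻¹ * a * g) * (g⁻¹ * b * g)) * g⁻¹ := by group
      _ = g * ((g⁻¹ * b * g) * (g⁻¹ * a * g)) * g⁻¹ := by rw [h1]
      _ = b * a := by group
  exact ⟨P, hKP, hone, hcomm⟩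

/-- A finite simple group with an involution `x` such that `C(x)` has a normal Klein four
Sylow 2-subgroup is isomorphic to `A₅`. -/
theorem simple_iso_of_normal_klein [IsSimpleGroup G] (x : G) (hx : orderOf x = 2)
    (S₀ : Subgroup G) (hle : S₀ ≤ Subgroup.centralizer ({x} : Set G)) (hK : IsKleinFour ↥S₀)
    (hodd : ¬ 2 ∣ S₀.relIndex (Subgroup.centralizer ({x} : Set G)))
    (hn : (S₀.subgroupOf (Subgroup.centralizer ({x} : Set G))).Normal) :
    Nonempty (G ≃* alternatingGroup (Fin 5)) := by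
  obtain ⟨P, hP⟩ := exists_hyp x hx S₀ hle hK hodd hn
  exact hP.simple_iso

end Cfsg.Agent.Helper21.KF
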