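import Mathlib

set_option autoImplicit false

namespace Cfsg.Agent.Helper21.LM

/-- ORB: conjugate elements lie in one `Aut G`-orbit, so there are at most as many automorphism
orbits as conjugacy classes. -/
theorem lm_orb {G : Type*} [Group G] [Finite G] :
    Nat.card (MulAction.orbitRel.Quotient (MulAut G) G) ≤ Nat.card (ConjClasses G) := by
  classical
  let f : ConjClasses G → MulAction.orbitRel.Quotient (MulAut G) G :=
    Quotient.lift (fun g : G => (Quotient.mk'' g : MulAction.orbitRel.Quotient (MulAut G) G))
      (by
        intro a b hab
        apply Quotient.sound'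
        obtain ⟨c, hc⟩ := (isConj_iff.mp hab)
        show a ∈ MulAction.orbit (MulAut G) b
        refine ⟨MulAut.conj c⁻¹, ?_⟩
        show MulAut.conj c⁻¹ b = a
        rw [MulAut.conj_apply, ← hc]
        group)
  have hf : Function.Surjective f := by
    intro q
    induction q using Quotient.inductionOn' with
    | _ g => exact ⟨ConjClasses.mk g, rfl⟩
  exact Nat.card_le_card_of_surjective f hf

end Cfsg.Agent.Helper21.LM
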