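import Mathlib
import Cfsg.Agent.Helper21.N2RDefs
import Cfsg.Agent.Helper20.N2RT1C
import Cfsg.Agent.Helper20.N2RT1G
import Cfsg.Agent.Helper20.N2RT1P
import Cfsg.Agent.Helper20.N2RT3C
import Cfsg.Agent.Helper20.N2RT3G
import Cfsg.Agent.Helper20.N2RT3P
import Cfsg.Agent.Helper3.N2RR1
import Cfsg.Agent.Helper31.N2RA0C
import Cfsg.Agent.Helper31.N2RCB
import Cfsg.Agent.Helper31.N2RCM
import Cfsg.Agent.Helper31.N2RFIN
import Cfsg.Agent.Helper31.N2RX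
import Cfsg.Agent.Helper67.N2RR2
import Cfsg.Agent.Helper70.N2RGT
import Cfsg.Agent.Helper83.N2RCEN
import Cfsg.Agent.Helper83.N2RRK1
import Cfsg.Agent.Helper83.N2RSUM
import Cfsg.Agent.Helper83.N2RT3H

/-!
# Assembly for S2249 (normal 2-rank of `GL_n(q)`, `q` odd)
-/

set_option autoImplicit false

namespace Cfsg.Agent.Helper21.N2R

open Matrix

theorem fE_idem {m ν : Type*} [Fintype m] [DecidableEq m] [DecidableEq ν]
    {F : Type*} [Field F] (π : m → ν) (k : ν) :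
    (fE π k : Matrix m m F) * fE π k = fE π k := by
  unfold fE
  rw [Matrix.diagonal_mul_diagonal]
  congr 1
  funext i
  split_ifs <;> simp

theorem A0_comm {m ν : Type*} [Fintype m] [DecidableEq m] (F : Type*) [Field F] (π : m → ν) :
    ∀ a ∈ A0 F π, ∀ b ∈ A0 F π, a * b = b * a := by
  rintro a ⟨ε, rfl⟩ b ⟨δ, rfl⟩
  rw [← map_mul, ← map_mul, mul_comm]

theorem A0_exp {m ν : Type*} [Fintype m] [DecidableEq m] (F : Type*) [Field F] (π : m → ν) :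
    ∀ a ∈ A0 F π, a ^ 2 = 1 := by
  rintro a ⟨ε, rfl⟩
  rw [← map_pow]
  have : ε ^ 2 = 1 := by
    funext i
    simp [Int.units_sq]
  rw [this, map_one]

theorem h4_of_frame {m ν : Type*} [Fintype m] [DecidableEq m] [Fintype ν] [DecidableEq ν]
    {F : Type*} [Field F] (h2 : (2 : F) ≠ 0) (π : m → ν) (T : Subgroup (GL m F))
    (B : Set ν) (hB : B.Subsingleton)
    (hgood : ∀ k, k ∉ B → ∃ u ∈ T, ∃ J : Matrix m m F,
      fE π k * J = J ∧ J * fE π k = J ∧ J * J = - fE π k ∧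
      (u : Matrix m m F) = 1 - fE π k + J ∧ ((u⁻¹ : GL m F) : Matrix m m F) = 1 - fE π k - J)
    (hcorner : ∀ k, ∀ a : GL m F, a * a = 1 →
      (a : Matrix m m F) * fE π k = fE π k * (a : Matrix m m F) →
      (∀ t ∈ T, Commute a (t * a * t⁻¹)) → ∃ c : F, (a : Matrix m m F) * fE π k = c • fE π k)
    (A : Subgroup (GL m F)) (hc : ∀ a ∈ A, ∀ b ∈ A, a * b = b * a) (he : ∀ a ∈ A, a ^ 2 = 1)
    (hTA : ∀ t ∈ T, ∀ a ∈ A, t * a * t⁻¹ ∈ A) : A ≤ A0 F π := by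
  intro a ha
  have haa : a * a = 1 := by rw [← sq]; exact he a ha
  have hcomm : ∀ t ∈ T, Commute a (t * a * t⁻¹) := fun t ht => hc a ha _ (hTA t ht a ha)
  have hgoodE : ∀ k, k ∉ B → (a : Matrix m m F) * fE π k = fE π k * (a : Matrix m m F) := by
    intro k hk
    obtain ⟨u, huT, J, h1, h2', h3, h4, h5⟩ := hgood k hk
    refine Cfsg.Agent.Helper3.N2RR1.ring_core (R := Matrix m m F) ?_ (a : Matrix m m F) (fE π k) J (u : Matrix m m F)
      ((u⁻¹ : GL m F) : Matrix m m F) ?_ (fE_idem π k) h1 h2' h3 h4 h5 ?_ ?_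
    · intro x hx
      rw [← two_smul F x] at hx
      exact (smul_eq_zero.mp hx).resolve_left h2
    · have := congrArg (fun g : GL m F => (g : Matrix m m F)) haa
      simpa using this
    · have h := (hcomm (u * u) (mul_mem huT huT)).eq
      have := congrArg (fun g : GL m F => (g : Matrix m m F)) h
      simpa [_root_.mul_inv_rev, mul_assoc] using this
    · have h := (hcomm u huT).eq
      have := congrArg (fun g : GL m F => (g : Matrix m m F)) h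
      simpa [mul_assoc] using this
  have hallE : ∀ k, (a : Matrix m m F) * fE π k = fE π k * (a : Matrix m m F) := by
    intro k
    by_cases hk : k ∈ B
    · have hsum := Cfsg.Agent.Helper83.N2RSUM.fE_sum (F := F) π
      have hEk : (fE π k : Matrix m m F) = 1 - ∑ k' ∈ Finset.univ.erase k, fE π k' := by
        rw [← hsum, ← Finset.add_sum_erase _ _ (Finset.mem_univ k)]
        abel
      rw [hEk, mul_sub, sub_mul, mul_one, one_mul, Finset.mul_sum, Finset.sum_mul]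
      congr 1
      apply Finset.sum_congr rfl
      intro k' hk'
      apply hgoodE
      intro hk'B
      exact (Finset.ne_of_mem_erase hk') (hB hk'B hk)
    · exact hgoodE k hk
  exact Cfsg.Agent.Helper31.N2RFIN.mem_A0_of_scalar π a haa (fun k => hcorner k a haa (hallE k) hcomm)

/-- corner compression of the commutation relation, in matrix form -/
theorem corner_aux {m ν ι' : Type*} [Fintype m] [DecidableEq m] [DecidableEq ν] [Fintype ι']
    [DecidableEq ι'] {F : Type*} [Field F] (π : m → ν) (k : ν) (e : ι' → m)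
    (hinj : Function.Injective e) (he : ∀ y, π y = k ↔ y ∈ Set.range e)
    (aM hM hiM : Matrix m m F) (Mm Mi : Matrix ι' ι' F)
    (hE : aM * fE π k = fE π k * aM) (hEh : hM * fE π k = fE π k * hM)
    (hEh' : hiM * fE π k = fE π k * hiM) (haa : aM * aM = 1)
    (hsub : hM.submatrix e e = Mm) (hsub' : hiM.submatrix e e = Mi)
    (hcm : aM * (hM * aM * hiM) = (hM * aM * hiM) * aM) :
    aM.submatrix e e * aM.submatrix e e = 1 ∧
    aM.submatrix e e * (Mm * aM.submatrix e e * Mi) = (Mm * aM.submatrix e e * Mi) * aM.submatrix e e := by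
  constructor
  · rw [← Cfsg.Agent.Helper31.N2RCM.corner_mul π k e hinj he _ _ hE, haa, Matrix.submatrix_one _ hinj]
  · have hha : hM * aM * fE π k = fE π k * (hM * aM) := by
      rw [mul_assoc, hE, ← mul_assoc, hEh, mul_assoc]
    have hhah : hM * aM * hiM * fE π k = fE π k * (hM * aM * hiM) := by
      rw [mul_assoc, hEh', ← mul_assoc, hha, mul_assoc]
    have hconj : (hM * aM * hiM).submatrix e e = Mm * aM.submatrix e e * Mi := by
      rw [Cfsg.Agent.Helper31.N2RCM.corner_mul π k e hinj he _ _ hha, Cfsg.Agent.Helper31.N2RCM.corner_mul π k e hinj he _ _ hEh, hsub, hsub']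
    have hc2 : (aM * (hM * aM * hiM)).submatrix e e = ((hM * aM * hiM) * aM).submatrix e e := by
      rw [hcm]
    rw [Cfsg.Agent.Helper31.N2RCM.corner_mul π k e hinj he _ _ hE, Cfsg.Agent.Helper31.N2RCM.corner_mul π k e hinj he _ _ hhah, hconj] at hc2
    exact hc2

/-- the corner at a `2 × 2` block is scalar -/
theorem T3_corner {κ ρ : Type*} [Fintype κ] [DecidableEq κ] [Fintype ρ] [DecidableEq ρ]
    {F : Type*} [Field F] (h2 : (2 : F) ≠ 0) (hns : ∀ y : F, y * y ≠ -1) (x : F)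
    (Mu : GL (Fin 2) F) (hMu : (Mu : Matrix (Fin 2) (Fin 2) F) = !![x, -x; x, x]) (i : κ)
    (a : GL ((Fin 2 × κ) ⊕ ρ) F) (haa : a * a = 1)
    (hE : (a : Matrix ((Fin 2 × κ) ⊕ ρ) ((Fin 2 × κ) ⊕ ρ) F) * fE (π3 κ ρ) (Sum.inl i)
      = fE (π3 κ ρ) (Sum.inl i) * (a : Matrix ((Fin 2 × κ) ⊕ ρ) ((Fin 2 × κ) ⊕ ρ) F))
    (hT : ∀ t ∈ T3 κ ρ Mu, Commute a (t * a * t⁻¹)) :
    ∃ c : F, (a : Matrix ((Fin 2 × κ) ⊕ ρ) ((Fin 2 × κ) ⊕ ρ) F) * fE (π3 κ ρ) (Sum.inl i)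
      = c • fE (π3 κ ρ) (Sum.inl i) := by
  obtain ⟨e, he_def⟩ : ∃ e : Fin 2 → (Fin 2 × κ) ⊕ ρ, e = fun s : Fin 2 => Sum.inl (s, i) :=
    ⟨_, rfl⟩
  have hinj : Function.Injective e := by
    intro s t hst
    rw [he_def] at hst
    simpa using hst
  have he : ∀ y, π3 κ ρ y = Sum.inl i ↔ y ∈ Set.range e := by
    intro y
    rw [he_def]
    rcases y with ⟨s, j⟩ | r
    · simp only [π3, Sum.map_inl, Sum.inl.injEq, Set.mem_range, Prod.mk.injEq]
      constructor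
      · rintro rfl
        exact ⟨s, rfl, rfl⟩
      · rintro ⟨t, -, h⟩
        exact h.symm
    · simp [π3]
  obtain ⟨h, hhT, hsub, hsub'⟩ := Cfsg.Agent.Helper83.N2RT3H.T3_block (ρ := ρ) Mu i
  rw [← he_def] at hsub hsub'
  have hEh := Cfsg.Agent.Helper20.N2RT3C.T3_commute_fE Mu h hhT (Sum.inl i)
  have hEh' := Cfsg.Agent.Helper20.N2RT3C.T3_commute_fE Mu h⁻¹ (inv_mem hhT) (Sum.inl i)
  have haaM : (a : Matrix ((Fin 2 × κ) ⊕ ρ) ((Fin 2 × κ) ⊕ ρ) F) * a = 1 := by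
    have := congrArg (fun g : GL ((Fin 2 × κ) ⊕ ρ) F =>
      (g : Matrix ((Fin 2 × κ) ⊕ ρ) ((Fin 2 × κ) ⊕ ρ) F)) haa
    simpa using this
  have hcm := (hT h hhT).eq
  have hcm' := congrArg (fun g : GL ((Fin 2 × κ) ⊕ ρ) F =>
      (g : Matrix ((Fin 2 × κ) ⊕ ρ) ((Fin 2 × κ) ⊕ ρ) F)) hcm
  simp only [Units.val_mul] at hcm'
  obtain ⟨hαα, hc2⟩ := corner_aux (π3 κ ρ) (Sum.inl i) e hinj he _ _ _ _ _ hE hEh hEh' haaM
    hsub hsub' hcm'
  rcases Cfsg.Agent.Helper67.N2RR2.two_core h2 hns x Mu hMu _ hαα hc2 with h1 | h1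
  · refine ⟨1, Cfsg.Agent.Helper31.N2RCB.corner_back (π3 κ ρ) (Sum.inl i) e hinj he _ hE 1 ?_⟩
    rw [h1, one_smul]
  · refine ⟨-1, Cfsg.Agent.Helper31.N2RCB.corner_back (π3 κ ρ) (Sum.inl i) e hinj he _ hE (-1) ?_⟩
    rw [h1, neg_smul, one_smul]

/-- the case `q ≡ 1 (mod 4)` -/
theorem case1 {F : Type*} [Field F] [Fintype F] (h2 : (2 : F) ≠ 0) (ι : Fˣ) (hι : ι ^ 2 = -1)
    (n : ℕ) (S : Sylow 2 (GL (Fin n) F)) :
    (∃ E : Subgroup ↥(S : Subgroup (GL (Fin n) F)), E.Normal ∧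
        (IsMulCommutative ↥E ∧ ∀ a ∈ E, a ^ 2 = 1) ∧ 2 ^ n ≤ Nat.card ↥E) ∧
    ∀ E : Subgroup ↥(S : Subgroup (GL (Fin n) F)), E.Normal →
      (IsMulCommutative ↥E ∧ ∀ a ∈ E, a ^ 2 = 1) → Nat.card ↥E ≤ 2 ^ n := by
  have : Fact (Nat.Prime 2) := ⟨Nat.prime_two⟩
  have hcard : Nat.card (A0 F (id : Fin n → Fin n)) = 2 ^ n := by
    rw [Cfsg.Agent.Helper31.N2RA0C.card_A0 h2 id Function.surjective_id, Fintype.card_fin]
  have hι4 : ι ^ 4 = 1 := by
    have h : ι ^ 4 = (ι ^ 2) ^ 2 := by rw [← pow_mul]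
    rw [h, hι]
    simp
  have hTc : ∀ t ∈ T1 (Fin n) ι, ∀ a ∈ A0 F (id : Fin n → Fin n),
      t * a * t⁻¹ ∈ A0 F (id : Fin n → Fin n) := by
    intro t ht a ha
    rw [Cfsg.Agent.Helper83.N2RCEN.A0_commute_of_fE_commute id t (fun k => Cfsg.Agent.Helper20.N2RT1C.T1_commute_fE ι id t ht k) a ha,
      mul_inv_cancel_right]
    exact ha
  have h4 : ∀ A : Subgroup (GL (Fin n) F), (∀ a ∈ A, ∀ b ∈ A, a * b = b * a) →
      (∀ a ∈ A, a ^ 2 = 1) → (∀ t ∈ T1 (Fin n) ι, ∀ a ∈ A, t * a * t⁻¹ ∈ A) →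
      A ≤ A0 F (id : Fin n → Fin n) := by
    intro A hc he hTA
    refine h4_of_frame h2 id (T1 (Fin n) ι) ∅ Set.subsingleton_empty ?_ ?_ A hc he hTA
    · intro k _
      exact Cfsg.Agent.Helper20.N2RT1G.T1_good ι hι k
    · intro k a _ hE _
      exact ⟨_, Cfsg.Agent.Helper83.N2RRK1.scalar_of_singleton_fibre id k k (fun i => Iff.rfl) _ hE⟩
  have hfin := Cfsg.Agent.Helper70.N2RGT.gt_transfer (p := 2) (MulEquiv.refl (GL (Fin n) F)) (T1 (Fin n) ι)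
    (A0 F (id : Fin n → Fin n)) (Cfsg.Agent.Helper20.N2RT1P.T1_isPGroup ι hι4) (A0_comm F id) (A0_exp F id) hTc h4 S
  rw [hcard] at hfin
  exact hfin

/-- the case `q ≡ 3 (mod 4)`, on the block index type -/
theorem case3_gen {κ ρ : Type*} [Fintype κ] [DecidableEq κ] [Fintype ρ] [DecidableEq ρ]
    [Subsingleton ρ] {F : Type*} [Field F] {H : Type*} [Group H] [Finite H]
    (e : GL ((Fin 2 × κ) ⊕ ρ) F ≃* H) (h2 : (2 : F) ≠ 0) (hns : ∀ y : F, y * y ≠ -1)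
    (x : F) (hx : 4 * x ^ 4 = 1) (S : Sylow 2 H) :
    (∃ E : Subgroup ↥(S : Subgroup H), E.Normal ∧
        (IsMulCommutative ↥E ∧ ∀ a ∈ E, a ^ 2 = 1) ∧
        2 ^ (Fintype.card κ + Fintype.card ρ) ≤ Nat.card ↥E) ∧
    ∀ E : Subgroup ↥(S : Subgroup H), E.Normal →
      (IsMulCommutative ↥E ∧ ∀ a ∈ E, a ^ 2 = 1) →
      Nat.card ↥E ≤ 2 ^ (Fintype.card κ + Fintype.card ρ) := by
  have : Fact (Nat.Prime 2) := ⟨Nat.prime_two⟩
  have hx0 : x ≠ 0 := by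
    rintro rfl
    simp at hx
  have hdet : (!![x, -x; x, x] : Matrix (Fin 2) (Fin 2) F).det ≠ 0 := by
    rw [Matrix.det_fin_two_of]
    intro h
    have h' : 2 * (x * x) = 0 := by linear_combination h
    rcases mul_eq_zero.mp h' with h'' | h''
    · exact h2 h''
    · exact hx0 (mul_self_eq_zero.mp h'')
  obtain ⟨Mu, hMu⟩ : ∃ Mu : GL (Fin 2) F, (Mu : Matrix (Fin 2) (Fin 2) F) = !![x, -x; x, x] :=
    ⟨Matrix.GeneralLinearGroup.mkOfDetNeZero _ hdet, rfl⟩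
  have hMu4 : ((Mu ^ 4 : GL (Fin 2) F) : Matrix (Fin 2) (Fin 2) F) = -1 := by
    rw [Units.val_pow_eq_pow_val, hMu]
    have h22 : (!![x, -x; x, x] : Matrix (Fin 2) (Fin 2) F) ^ 4
        = (!![x, -x; x, x] * !![x, -x; x, x]) * (!![x, -x; x, x] * !![x, -x; x, x]) := by
      rw [← sq, ← sq, ← pow_mul]
    rw [h22]
    ext s t
    fin_cases s <;> fin_cases t <;>
      simp [Matrix.mul_apply, Fin.sum_univ_two] <;> linear_combination (-1 : F) * hx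
  have hMu8 : Mu ^ 8 = 1 := by
    apply Units.ext
    have h : Mu ^ 8 = (Mu ^ 4) ^ 2 := by rw [← pow_mul]
    rw [h, Units.val_pow_eq_pow_val, hMu4]
    simp
  have hπ : Function.Surjective (π3 κ ρ) := by
    rintro (i | r)
    · exact ⟨Sum.inl (0, i), rfl⟩
    · exact ⟨Sum.inr r, rfl⟩
  have hcard : Nat.card (A0 F (π3 κ ρ)) = 2 ^ (Fintype.card κ + Fintype.card ρ) := by
    rw [Cfsg.Agent.Helper31.N2RA0C.card_A0 h2 (π3 κ ρ) hπ, Fintype.card_sum]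
  have hTc : ∀ t ∈ T3 κ ρ Mu, ∀ a ∈ A0 F (π3 κ ρ), t * a * t⁻¹ ∈ A0 F (π3 κ ρ) := by
    intro t ht a ha
    rw [Cfsg.Agent.Helper83.N2RCEN.A0_commute_of_fE_commute (π3 κ ρ) t (fun k => Cfsg.Agent.Helper20.N2RT3C.T3_commute_fE Mu t ht k) a ha,
      mul_inv_cancel_right]
    exact ha
  have h4 : ∀ A : Subgroup (GL ((Fin 2 × κ) ⊕ ρ) F), (∀ a ∈ A, ∀ b ∈ A, a * b = b * a) →
      (∀ a ∈ A, a ^ 2 = 1) → (∀ t ∈ T3 κ ρ Mu, ∀ a ∈ A, t * a * t⁻¹ ∈ A) →
      A ≤ A0 F (π3 κ ρ) := by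
    intro A hc he hTA
    refine h4_of_frame h2 (π3 κ ρ) (T3 κ ρ Mu) (Set.range Sum.inr) ?_ ?_ ?_ A hc he hTA
    · rintro _ ⟨r, rfl⟩ _ ⟨r', rfl⟩
      rw [Subsingleton.elim r r']
    · rintro (i | r) hk
      · exact Cfsg.Agent.Helper20.N2RT3G.T3_good Mu hMu4 i
      · exact absurd ⟨r, rfl⟩ hk
    · rintro (i | r) a haa hE hT
      · exact T3_corner h2 hns x Mu hMu i a haa hE hT
      · refine ⟨_, Cfsg.Agent.Helper83.N2RRK1.scalar_of_singleton_fibre (π3 κ ρ) (Sum.inr r) (Sum.inr r) ?_ _ hE⟩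
        rintro (⟨s, j⟩ | r')
        · simp [π3]
        · simp [π3]
  have hfin := Cfsg.Agent.Helper70.N2RGT.gt_transfer (p := 2) e (T3 κ ρ Mu) (A0 F (π3 κ ρ)) (Cfsg.Agent.Helper20.N2RT3P.T3_isPGroup Mu hMu8)
    (A0_comm F _) (A0_exp F _) hTc h4 S
  rw [hcard] at hfin
  exact hfin

/-- reindexing of `GL` -/
noncomputable def reindexGL {m n : Type*} [Fintype m] [DecidableEq m] [Fintype n] [DecidableEq n]
    (F : Type*) [Field F] (idx : m ≃ n) : GL m F ≃* GL n F :=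
  Units.mapEquiv (Matrix.reindexAlgEquiv F F idx).toMulEquiv

/-- the case `q ≡ 3 (mod 4)` -/
theorem case3 {F : Type*} [Field F] [Fintype F] (h2 : (2 : F) ≠ 0) (hns : ∀ y : F, y * y ≠ -1)
    (x : F) (hx : 4 * x ^ 4 = 1) (n : ℕ) (S : Sylow 2 (GL (Fin n) F)) :
    (∃ E : Subgroup ↥(S : Subgroup (GL (Fin n) F)), E.Normal ∧
        (IsMulCommutative ↥E ∧ ∀ a ∈ E, a ^ 2 = 1) ∧ 2 ^ ((n + 1) / 2) ≤ Nat.card ↥E) ∧
    ∀ E : Subgroup ↥(S : Subgroup (GL (Fin n) F)), E.Normal →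
      (IsMulCommutative ↥E ∧ ∀ a ∈ E, a ^ 2 = 1) → Nat.card ↥E ≤ 2 ^ ((n + 1) / 2) := by
  have : Subsingleton (Fin (n % 2)) := ⟨fun a b => Fin.ext (by have := a.isLt; have := b.isLt; omega)⟩
  have hcardidx : Fintype.card ((Fin 2 × Fin (n / 2)) ⊕ Fin (n % 2)) = n := by
    simp only [Fintype.card_sum, Fintype.card_prod, Fintype.card_fin]
    omega
  have hfin := case3_gen (κ := Fin (n / 2)) (ρ := Fin (n % 2))
    (reindexGL F (Fintype.equivFinOfCardEq hcardidx)) h2 hns x hx S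
  have hexp : Fintype.card (Fin (n / 2)) + Fintype.card (Fin (n % 2)) = (n + 1) / 2 := by
    simp only [Fintype.card_fin]
    omega
  rw [hexp] at hfin
  exact hfin

end Cfsg.Agent.Helper21.N2R
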