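import Mathlib
import Cfsg.Prelude.Def_CaseTheorems
import Cfsg.Agent.Helper21.Basic

set_option autoImplicit false

/-!
# `p`-rank lemmas (helper21)

* `pRankLE_of_injective`: `PRankLE` passes to groups embedding into the given one.
* `not_pRankLE_mono`, `not_pRankLE_conj`: rank at least `k` passes to overgroups and conjugates.
* `exists_normalizing_of_lt`: normalizers grow in finite `p`-groups.
* `conj_mem_normalizer_map`.
-/

namespace Cfsg.Agent.Helper21

theorem pRankLE_of_injective {A B : Type*} [Group A] [Group B] {p j : ℕ} (f : A →* B)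
    (hf : Function.Injective f) (h : Cfsg.PRankLE p j B) : Cfsg.PRankLE p j A := by
  intro E hE hexp
  have h1 : ∀ b ∈ E.map f, b ^ p = 1 := by
    rintro b ⟨a, ha, rfl⟩
    rw [← map_pow, hexp a ha, map_one]
  have := h (E.map f) inferInstance h1
  rwa [Subgroup.card_map_of_injective hf] at this

theorem not_pRankLE_mono {G : Type*} [Group G] {p j : ℕ} {R S : Subgroup G} (h : R ≤ S)
    (hR : ¬ Cfsg.PRankLE p j R) : ¬ Cfsg.PRankLE p j S :=
  fun hS => hR (pRankLE_of_injective (Subgroup.inclusion h) (Subgroup.inclusion_injective h) hS)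

theorem not_pRankLE_map {G G' : Type*} [Group G] [Group G'] {p j : ℕ} {R : Subgroup G}
    (f : G →* G') (hf : Function.Injective f) (hR : ¬ Cfsg.PRankLE p j R) :
    ¬ Cfsg.PRankLE p j (R.map f) :=
  fun hS => hR (pRankLE_of_injective (R.equivMapOfInjective f hf).toMonoidHom
    (R.equivMapOfInjective f hf).injective hS)

theorem not_pRankLE_conj {G : Type*} [Group G] {p j : ℕ} {R : Subgroup G} (g : G)
    (hR : ¬ Cfsg.PRankLE p j R) : ¬ Cfsg.PRankLE p j (R.map (MulAut.conj g).toMonoidHom) :=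
  not_pRankLE_map _ (MulAut.conj g).injective hR

/-- A subgroup with an elementary abelian subgroup of order `> p ^ j` does not have rank `≤ j`. -/
theorem not_pRankLE_of_elemAb {G : Type*} [Group G] {p j : ℕ} {A S : Subgroup G} (hAS : A ≤ S)
    (hA : IsMulCommutative A) (hexp : ∀ a ∈ A, a ^ p = 1) (hcard : ¬ Nat.card A ≤ p ^ j) :
    ¬ Cfsg.PRankLE p j S := by
  apply not_pRankLE_mono hAS
  intro h
  apply hcard
  have h1 : IsMulCommutative (⊤ : Subgroup A) :=
    ⟨⟨fun a b => Subtype.ext (hA.is_comm.comm a.1 b.1)⟩⟩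
  have h2 : ∀ a ∈ (⊤ : Subgroup A), a ^ p = 1 := by
    intro a _
    apply Subtype.ext
    have := hexp a.1 a.2
    simpa using this
  have := h ⊤ h1 h2
  rwa [Subgroup.card_top] at this

/-- Conjugating a normalizing element. -/
theorem conj_mem_normalizer_map {G : Type*} [Group G] {X : Subgroup G} {n : G}
    (hn : n ∈ Subgroup.normalizer (X : Set G)) (h : G) :
    h * n * h⁻¹ ∈ Subgroup.normalizer ((X.map (MulAut.conj h).toMonoidHom : Subgroup G) : Set G) := by
  rw [Subgroup.mem_normalizer_iff]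
  intro y
  rw [mem_map_conj_iff, mem_map_conj_iff, Subgroup.mem_normalizer_iff.mp hn (h⁻¹ * y * h)]
  have e : n * (h⁻¹ * y * h) * n⁻¹ = h⁻¹ * (h * n * h⁻¹ * y * (h * n * h⁻¹)⁻¹) * h := by group
  rw [e]

/-- Normalizers grow in finite `p`-groups: a proper subgroup `S` of a `p`-group `Q` is normalized
by some element of `Q` outside `S`. -/
theorem exists_normalizing_of_lt {G : Type*} [Group G] [Finite G] {p : ℕ} [Fact p.Prime]
    {S Q : Subgroup G} (hQ : IsPGroup p Q) (hlt : S < Q) :
    ∃ x ∈ Q, x ∉ S ∧ x ∈ Subgroup.normalizer (S : Set G) := by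
  have hnil : Group.IsNilpotent Q := hQ.isNilpotent
  have hlt' : S.subgroupOf Q < ⊤ := by
    rw [lt_top_iff_ne_top]
    intro htop
    rw [Subgroup.subgroupOf_eq_top] at htop
    exact hlt.not_ge htop
  have hnc := Group.normalizerCondition_of_isNilpotent (G := Q) (S.subgroupOf Q) hlt'
  obtain ⟨x, hxN, hxS⟩ := SetLike.exists_of_lt hnc
  refine ⟨x.1, x.2, ?_, ?_⟩
  · intro hx
    exact hxS (Subgroup.mem_subgroupOf.mpr hx)
  · apply mem_normalizer_of_conj_mem
    intro w hw
    have := (Subgroup.mem_normalizer_iff.mp hxN ⟨w, hlt.le hw⟩).mp (Subgroup.mem_subgroupOf.mpr hw)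
    exact Subgroup.mem_subgroupOf.mp this

end Cfsg.Agent.Helper21
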